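import Cfsg.Agent.DT.Burn

/-!
Doubly transitive groups of degree `p² + 1`: the Sylow subgroup.
-/

set_option autoImplicit false

namespace Cfsg.Agent.DT

open MulAction Subgroup Pointwise

variable {G Ω : Type*} [Group G] [MulAction G Ω]

/-- orbits of subgroups -/
def orb (H : Subgroup G) (y : Ω) : Set Ω := {z | ∃ g ∈ H, g • y = z}

/-- fixed points other than `a` -/
def fx (N : Subgroup G) (a : Ω) : Set Ω := {y | y ≠ a ∧ ∀ g ∈ N, g • y = y}

variable (G) in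
/-- two-point stabilisers -/
abbrev D2 (a b : Ω) : Subgroup G := stabilizer G a ⊓ stabilizer G b

theorem rel_orb (H : Subgroup G) (y : Ω) : (stabilizer G y).relIndex H = (orb H y).ncard := by
  rw [show orb H y = orbit H y from Set.ext fun z => ⟨fun ⟨g, h, e⟩ => ⟨⟨g, h⟩, e⟩, fun ⟨g, e⟩ => ⟨g, g.2, e⟩⟩,
    ← index_stabilizer]
  rfl

theorem card_orb (H : Subgroup G) (y : Ω) : Nat.card (H ⊓ stabilizer G y :) * (orb H y).ncard = Nat.card H := by
  rw [← rel_orb, ← card_mul_index ((stabilizer G y).subgroupOf H), ← inf_subgroupOf_left,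
    Nat.card_congr (subgroupOfEquivOfLe inf_le_left).toEquiv, inf_subgroupOf_left]
  rfl

theorem ne_of_fix {a y : Ω} {g : G} (hg : g • a = a) (hy : y ≠ a) : g • y ≠ a := fun e =>
  hy (MulAction.injective g (e.trans hg.symm))

theorem inv_fix {y : Ω} {g : G} (hg : g • y = y) : g⁻¹ • y = y := inv_smul_eq_iff.2 hg.symm

theorem le_of_conj [Finite G] {N N' : Subgroup G} {g : G} (h : ∀ n ∈ N', g * n * g⁻¹ ∈ N) (h' : N ≤ N') : N' ≤ N :=
  (eq_of_le_of_card_ge h' (Nat.card_le_card_of_injective (fun n : N' => (⟨_, h n n.2⟩ : N)) fun x y e => by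
    simpa using e)).ge

variable [Finite G] [Fintype Ω] [FaithfulSMul G Ω]

variable (G) in
/-- the context -/
structure Ctx (p : ℕ) (a b : Ω) : Prop where
  hp : p.Prime
  card : Fintype.card Ω = p ^ 2 + 1
  two : ∀ {x y x' y' : Ω}, x ≠ y → x' ≠ y' → ∃ g : G, g • x = x' ∧ g • y = y'
  ne : b ≠ a

namespace Ctx

variable {p : ℕ} {a b : Ω} (c : Ctx G p a b)

include c

omit [Finite G] [FaithfulSMul G Ω]

theorem ncard_ne : {y | y ≠ a}.ncard = p ^ 2 := by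
  rw [show {y | y ≠ a} = {a}ᶜ from rfl, Set.ncard_compl, Nat.card_eq_fintype_card, c.card]; simp

theorem ncard_orb {H : Subgroup G} (h1 : ∀ g ∈ H, g • a = a) (h2 : ∀ y ≠ a, ∃ g ∈ H, g • b = y) :
    (orb H b).ncard = p ^ 2 := by
  rw [← c.ncard_ne]; congr 1
  exact Set.ext fun y => ⟨fun ⟨g, h, e⟩ => e ▸ ne_of_fix (h1 g h) c.ne, h2 y⟩

theorem index_D2 : (D2 G a b).index = p ^ 2 * (p ^ 2 + 1) := by
  rw [← relIndex_mul_index inf_le_left, inf_relIndex_left, rel_orb, c.ncard_orb (fun _ h => h) fun y hy =>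
    c.two c.ne.symm hy.symm, index_stabilizer, ← c.card, ← Nat.card_eq_fintype_card, ← Set.ncard_univ]
  congr 2
  refine Set.eq_univ_of_forall fun y => ?_
  obtain ⟨z, hz⟩ : ∃ z, z ≠ y := (eq_or_ne a y).elim (fun e => ⟨b, e ▸ c.ne⟩) fun e => ⟨a, e⟩
  exact (c.two c.ne.symm hz.symm).imp fun _ h => h.1

theorem no_line {l : Set Ω} (h1 : l.ncard = p) (h2 : a ∉ l) (h3 : ∀ g ∈ D2 G a b, ∀ y ∈ l, g • y ∈ l)
    (h4 : ∀ y ∈ l, ∀ z ∈ l, ∃ g : G, g • a = a ∧ (∀ w ∈ l, g • w ∈ l) ∧ g • y = z) {s : G} (h5 : s • a ≠ a)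
    (h6 : ∀ y ∈ insert a l, s • y ∈ insert a l) : False := by
  have h7 : ∀ g : G, g • a = a → (∀ w ∈ l, g • w ∈ l) → g ∈ stabilizer G (insert a l) := fun g e e' =>
    (mem_stabilizer_set' (Set.toFinite _)).2 (by rintro w (rfl | h); exacts [Or.inl e, Or.inr (e' w h)])
  have h8 : s ∈ stabilizer G (insert a l) := (mem_stabilizer_set' (Set.toFinite _)).2 h6
  have h9 : orb (stabilizer G (insert a l)) a = insert a l := Set.ext fun y => ⟨fun ⟨g, h, e⟩ =>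
    e ▸ (mem_stabilizer_set.1 h a).2 (Or.inl rfl), by
      rintro (rfl | h)
      · exact ⟨1, one_mem _, one_smul _ _⟩
      · obtain ⟨g, e1, e2, e3⟩ := h4 _ ((h6 a (Or.inl rfl)).resolve_left h5) y h
        exact ⟨g * s, mul_mem (h7 g e1 e2) h8, by rw [mul_smul, e3]⟩⟩
  have e : D2 G a b ≤ stabilizer G (insert a l) := fun g h => h7 g h.1 (h3 g h)
  have := (Dvd.intro_left _ (relIndex_mul_relIndex _ (stabilizer G (insert a l) ⊓ stabilizer G a) _
    (le_inf e inf_le_left) inf_le_left)).trans (relIndex_dvd_index_of_le e)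
  rw [inf_relIndex_left, rel_orb, h9, Set.ncard_insert_of_notMem h2, h1, c.index_D2] at this
  have h0 : (p + 1 : ℤ) ∣ 2 := (dvd_add_right (Dvd.intro ((p - 1 : ℤ) * (p ^ 2 + 2)) rfl)).1
    ((show (p + 1 : ℤ) ∣ p ^ 2 * (p ^ 2 + 1) by exact_mod_cast this).trans (dvd_of_eq (by ring)))
  have := Int.le_of_dvd two_pos h0
  have := c.hp.two_le
  omega

theorem block_dvd {H : Subgroup G} (h1 : ∀ g ∈ H, g • a = a) (h2 : ∀ y ≠ a, ∃ g ∈ H, g • b = y) {S : Set Ω}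
    (h3 : a ∉ S) (h4 : b ∈ S) (h5 : ∀ g ∈ H, g • b ∈ S → ∀ y ∈ S, g • y ∈ S) :
    orb (H ⊓ stabilizer G S) b = S ∧ (S.ncard = 1 ∨ S.ncard = p ∨ ∀ y ≠ a, y ∈ S) := by
  have e : orb (H ⊓ stabilizer G S) b = S := Set.ext fun y => ⟨fun ⟨g, h, e⟩ => e ▸ (mem_stabilizer_set.1 h.2 b).2 h4,
    fun h => by
      obtain ⟨g, hg, rfl⟩ := h2 y fun e => h3 (e ▸ h)
      exact ⟨g, ⟨hg, (mem_stabilizer_set' (Set.toFinite _)).2 (h5 g hg h)⟩, rfl⟩⟩
  have e' : H ⊓ stabilizer G b ≤ H ⊓ stabilizer G S := fun g h =>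
    ⟨h.1, (mem_stabilizer_set' (Set.toFinite _)).2 (h5 g h.1 ((show g • b = b from h.2).symm ▸ h4))⟩
  have := Dvd.intro _ (relIndex_mul_relIndex _ _ _ e' inf_le_left)
  rw [inf_relIndex_left, rel_orb, c.ncard_orb h1 h2, ← inf_relIndex_right, inf_comm H, inf_assoc, ← inf_assoc H,
    inf_idem, inf_relIndex_right, rel_orb, e] at this
  obtain ⟨k, hk, e''⟩ := (Nat.dvd_prime_pow c.hp).1 this
  refine ⟨e, ?_⟩
  interval_cases k
  · exact Or.inl e''
  · exact Or.inr (Or.inl (e''.trans (pow_one p)))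
  · exact Or.inr (Or.inr (Set.eq_of_subset_of_ncard_le (s := S) (t := {y | y ≠ a}) (fun y h e => h3 (e ▸ h))
      (by rw [e'', c.ncard_ne])).ge)

end Ctx

omit [Finite G] [Fintype Ω] [FaithfulSMul G Ω] in
theorem fx_conj {N : Subgroup G} {a b : Ω} {g : G} (h1 : g • a = a) (h2 : ∀ n ∈ N, g⁻¹ * n * g ∈ N)
    (h4 : g • b ∈ fx (N ⊓ stabilizer G b) a) :
    ∀ y ∈ fx (N ⊓ stabilizer G b) a, g • y ∈ fx (N ⊓ stabilizer G b) a := fun y hy => ⟨ne_of_fix h1 hy.1, fun n hn => by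
  have : g⁻¹ * n * g ∈ N ⊓ stabilizer G b := ⟨h2 n hn.1, show _ • b = b by
    rw [mul_smul, mul_smul, h4.2 n hn, inv_smul_smul]⟩
  exact inv_smul_eq_iff.1 (show g⁻¹ • n • g • y = y by simpa only [mul_smul] using hy.2 _ this)⟩

omit [Finite G] [Fintype Ω] in
theorem eq_bot_of_fx {N : Subgroup G} {a : Ω} (h1 : ∀ n ∈ N, n • a = a) (h : ∀ y ≠ a, y ∈ fx N a) : N = ⊥ :=
  eq_bot_iff.2 fun n hn => eq_of_smul_eq_smul (α := Ω) fun y => by
    rw [one_smul]; exact (eq_or_ne y a).elim (fun e => e ▸ h1 n hn) fun e => (h y e).2 n hn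

theorem Ctx.fx_card {p : ℕ} {a b : Ω} (c : Ctx G p a b) {H N : Subgroup G} (h1 : ∀ g ∈ H, g • a = a)
    (h2 : ∀ y ≠ a, ∃ g ∈ H, g • b = y) (h3 : ∀ g ∈ H, ∀ n ∈ N, g * n * g⁻¹ ∈ N) (h4 : ∀ n ∈ N, n • a = a)
    (h5 : N ⊓ stabilizer G b ≠ ⊥) :
    (fx (N ⊓ stabilizer G b) a).ncard = 1 ∨ (fx (N ⊓ stabilizer G b) a).ncard = p :=
  (c.block_dvd h1 h2 (S := fx (N ⊓ stabilizer G b) a) (fun h => h.1 rfl) ⟨c.ne, fun _ h => h.2⟩ fun g hg =>
    fx_conj (h1 g hg) (by simpa using h3 _ (inv_mem hg))).2.imp_right fun h => h.resolve_right fun e =>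
      h5 (eq_bot_of_fx (fun n hn => h4 n hn.1) e)

variable (G) in
/-- blocks of size `p` -/
structure Blk (p : ℕ) (a b : Ω) (B : Set Ω) : Prop where
  na : a ∉ B
  hb : b ∈ B
  card : B.ncard = p
  blk : ∀ g : G, g • a = a → g • b ∈ B → ∀ y ∈ B, g • y ∈ B

theorem Ctx.exists_P {p : ℕ} {a b : Ω} (c : Ctx G p a b) : ∃ P : Subgroup G, (∀ g ∈ P, g • a = a) ∧
    (∀ y ≠ a, ∃ g ∈ P, g • b = y) ∧
      Nat.card (P ⊓ stabilizer G b :) = p ^ (Nat.card (D2 G a b)).factorization p := by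
  have := Fact.mk c.hp
  obtain ⟨P₀⟩ : Nonempty (Sylow p G) := inferInstance
  obtain ⟨y, hy⟩ := P₀.isPGroup'.nonempty_fixed_point_of_prime_not_dvd_card Ω (by
    rw [Nat.card_eq_fintype_card, c.card]
    exact fun h => c.hp.not_dvd_one ((Nat.dvd_add_right (dvd_pow_self p two_ne_zero)).1 h))
  obtain ⟨z, hz⟩ : ∃ z, z ≠ y := (eq_or_ne a y).elim (fun e => ⟨b, e ▸ c.ne⟩) fun e => ⟨a, e⟩
  obtain ⟨g, hg, -⟩ := c.two hz.symm c.ne.symm
  obtain ⟨P, h1⟩ : ∃ P : Sylow p G, ∀ x ∈ (P : Subgroup G), x • a = a := ⟨g • P₀, fun x hx => by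
    have := hy ⟨_, mem_pointwise_smul_iff_inv_smul_mem.1 hx⟩
    rw [← hg, ← inv_smul_eq_iff, ← mul_smul, ← mul_smul]; simpa using this⟩
  have h2 := P.card_eq_multiplicity
  have h0 : p ^ 2 + 1 ≠ 0 := by omega
  rw [← (D2 G a b).card_mul_index, c.index_D2, Nat.factorization_mul Nat.card_pos.ne' (mul_ne_zero (by
    have := c.hp.pos; positivity) h0), Nat.factorization_mul (by have := c.hp.pos; positivity) h0, Finsupp.add_apply,
    Finsupp.add_apply, c.hp.factorization_pow, Finsupp.single_eq_same, Nat.factorization_eq_zero_of_not_dvd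
      (fun h => c.hp.not_dvd_one ((Nat.dvd_add_right (dvd_pow_self p two_ne_zero)).1 h)), add_zero, pow_add,
    ← card_orb _ b] at h2
  have h3 : orb (P : Subgroup G) b ⊆ {y | y ≠ a} := fun y ⟨g, h, e⟩ => e ▸ ne_of_fix (h1 g h) c.ne
  have h4 := Set.ncard_le_ncard h3
  rw [c.ncard_ne] at h4
  obtain ⟨n, hn⟩ := (P.isPGroup'.to_inf_left (K := stabilizer G b)).exists_card_eq
  have h5 : p ^ n ≤ p ^ (Nat.card (D2 G a b)).factorization p := Nat.pow_le_pow_right c.hp.pos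
    ((c.hp.pow_dvd_iff_le_factorization Nat.card_pos.ne').1 (hn ▸ card_dvd_of_le (inf_le_inf_right _ h1)))
  rw [hn] at h2
  have := c.hp.pos
  have h6 : (orb (P : Subgroup G) b).ncard = p ^ 2 := le_antisymm h4 (Nat.le_of_mul_le_mul_left
    (h2.ge.trans (Nat.mul_le_mul_right _ h5)) (by positivity))
  refine ⟨P, h1, (Set.eq_of_subset_of_ncard_le h3 (by rw [h6, c.ncard_ne])).ge, ?_⟩
  rw [h6] at h2
  exact hn.trans (Nat.eq_of_mul_eq_mul_right (by positivity) h2)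

theorem Ctx.coprime {p : ℕ} {a b : Ω} (c : Ctx G p a b) {B : Set Ω} (hB : Blk G p a b B) {P : Subgroup G}
    (h1 : ∀ g ∈ P, g • a = a) (h2 : ∀ y ≠ a, ∃ g ∈ P, g • b = y)
    (h3 : Nat.card (P ⊓ stabilizer G b :) = p ^ (Nat.card (D2 G a b)).factorization p) :
    P ⊓ stabilizer G b = ⊥ := by
  have := Fact.mk c.hp
  by_contra h4
  have h5 : B ⊆ fx (P ⊓ stabilizer G b) a := fun y hy => ⟨fun e => hB.na (e ▸ hy), fun g hg => by
    rcases eq_or_ne y b with rfl | hyb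
    · exact hg.2
    have e1 : orb (P ⊓ stabilizer G b) y ⊆ B \ {b} := fun z ⟨g, h, e⟩ =>
      e ▸ ⟨hB.blk g (h1 g h.1) ((show g • b = b from h.2).symm ▸ hB.hb) y hy, ne_of_fix h.2 hyb⟩
    have e2 := Set.ncard_le_ncard e1
    rw [Set.ncard_sdiff_singleton_of_mem hB.hb, hB.card] at e2
    obtain ⟨k, -, e3⟩ := (Nat.dvd_prime_pow c.hp).1 (h3 ▸ Dvd.intro_left _ (card_orb (P ⊓ stabilizer G b) y))
    rcases k with _ | k
    · obtain ⟨z, e4⟩ := Set.ncard_eq_one.1 e3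
      exact (e4.le ⟨g, hg, rfl⟩).trans (e4.le ⟨1, one_mem _, one_smul _ _⟩).symm
    · have := Nat.le_self_pow (k.add_one_ne_zero) p
      have := c.hp.pos; omega⟩
  have h6 : B = fx (P ⊓ stabilizer G b) a := Set.eq_of_subset_of_ncard_le h5 (by
    rcases c.fx_card h1 h2 (fun g h n h' => mul_mem (mul_mem h h') (inv_mem h)) h1 h4 with e | e <;> rw [e, hB.card]
    exact c.hp.pos)
  obtain ⟨t, ht, ht'⟩ := c.two c.ne.symm c.ne
  have h7 : P ⊓ stabilizer G b ≤ D2 G a b := inf_le_inf_right _ h1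
  have h8 : MulAut.conj t • (P ⊓ stabilizer G b) ≤ D2 G a b := fun x hx => by
    have := h7 (mem_pointwise_smul_iff_inv_smul_mem.1 hx)
    simp only [mem_inf, mem_stabilizer_iff, MulAut.smul_def, MulAut.conj_inv_apply, mul_smul, ht, ht',
      inv_smul_eq_iff] at this
    exact ⟨this.2, this.1⟩
  obtain ⟨d, hd⟩ := exists_smul_eq (D2 G a b) (Sylow.ofCard (p := p) (_root_.Subgroup.subgroupOf _ _)
    ((Nat.card_congr (subgroupOfEquivOfLe h8).toEquiv).trans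
      ((Nat.card_congr (equivSMul _ _).toEquiv).symm.trans h3))) (Sylow.ofCard (_root_.Subgroup.subgroupOf _ _)
    ((Nat.card_congr (subgroupOfEquivOfLe h7).toEquiv).trans h3))
  have h9 : ∀ q ∈ P ⊓ stabilizer G b, (d * t : G)⁻¹ * q * (d * t) ∈ P ⊓ stabilizer G b := fun q hq => by
    have := mem_pointwise_smul_iff_inv_smul_mem.1 ((congrArg Sylow.toSubgroup hd).ge (x := ⟨q, h7 hq⟩) hq)
    simpa [mul_assoc] using mem_pointwise_smul_iff_inv_smul_mem.1 this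
  refine c.no_line hB.card hB.na (fun g h => hB.blk g h.1 ((show g • b = b from h.2).symm ▸ hB.hb)) (fun y hy z hz => ?_)
    (s := d * t) (by rw [mul_smul, ht, d.2.2]; exact c.ne) fun y hy => ?_
  · obtain ⟨g, hg, rfl⟩ := h2 y fun e => hB.na (e ▸ hy)
    obtain ⟨g', hg', rfl⟩ := h2 z fun e => hB.na (e ▸ hz)
    refine ⟨g' * g⁻¹, h1 _ (mul_mem hg' (inv_mem hg)), fun w hw => ?_, by simp [mul_smul]⟩
    exact mul_smul g' _ w ▸ hB.blk g' (h1 _ hg') hz _ ((mem_stabilizer_set.1 (inv_mem ((mem_stabilizer_set'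
      (Set.toFinite _)).2 (hB.blk g (h1 _ hg) hy))) w).2 hw)
  · refine or_iff_not_imp_left.2 fun e => h6 ▸ ⟨e, fun q hq => ?_⟩
    have : ((d * t : G)⁻¹ * q * (d * t)) • y = y := by
      rcases hy with rfl | hy
      exacts [(h7 (h9 q hq)).1, (h5 hy).2 _ (h9 q hq)]
    rwa [mul_smul, mul_smul, inv_smul_eq_iff] at this

end Cfsg.Agent.DT
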