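import Mathlib

/-!
Burnside's theorem on permutation groups of prime degree (Müller's proof) and linked designs.
-/

set_option autoImplicit false

namespace Cfsg.Agent.DT

open Polynomial Finset

theorem affine_of_card {p : ℕ} [Fact p.Prime] {U : Finset (ZMod p)} (h0 : U.Nonempty) (h1 : 0 ∉ U)
    (h2 : 2 * U.card < p) (π : Equiv.Perm (ZMod p)) (h : ∀ i j, π i - π j ∈ U ↔ i - j ∈ U) :
    ∃ a b, ∀ i, π i = a * i + b := by
  have hp : p.Prime := Fact.out
  obtain ⟨f, hf, hf'⟩ : ∃ f : (ZMod p)[X], f.natDegree < p ∧ ∀ i, f.eval i = π i := by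
    refine ⟨Lagrange.interpolate univ id π, ?_, fun i => Lagrange.eval_interpolate_at_node (v := id) _
      (Set.injOn_id _) (mem_univ i)⟩
    have := Lagrange.degree_interpolate_lt (s := univ) (v := id) π (Set.injOn_id _)
    rw [card_univ, ZMod.card] at this
    exact lt_of_not_ge fun e => (hp.pos.trans_le e).ne' (natDegree_eq_of_degree_eq_some (n := 0) <| by
      by_contra e'; exact this.not_ge (le_degree_of_ne_zero (mt leadingCoeff_eq_zero.1 fun e'' => by
        rw [e''] at e; exact hp.pos.not_ge e) |>.trans' (by exact_mod_cast e)))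
  by_cases hn : f.natDegree ≤ 1
  · exact ⟨f.coeff 1, f.coeff 0, fun i => by rw [← hf', eq_X_add_C_of_natDegree_le_one hn]; simp⟩
  exfalso
  have h3 : ∃ r, ∑ u ∈ U, u ^ (r + 1) ≠ 0 ∧ r < U.card := by
    by_contra! h3
    have := Matrix.eq_zero_of_forall_pow_sum_mul_pow_eq_zero (f := fun j => (U.equivFin.symm j : ZMod p))
      (v := fun j => (U.equivFin.symm j : ZMod p)) (Subtype.val_injective.comp U.equivFin.symm.injective) fun i => by
        by_contra e
        refine (h3 i ?_).not_gt i.2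
        rwa [← sum_coe_sort, ← U.equivFin.symm.sum_comp, sum_congr rfl fun _ _ => pow_succ' _ _]
    exact h1 ((show (U.equivFin.symm _ : ZMod p) = 0 from congrFun this ⟨0, h0.card_pos⟩) ▸ (U.equivFin.symm _).2)
  obtain ⟨r, hr, hr'⟩ : ∃ r, (∑ u ∈ U, u ^ (r + 1) ≠ 0 ∧ r < U.card) ∧ ∀ k < r, ∑ u ∈ U, u ^ (k + 1) = 0 :=
    ⟨Nat.find h3, Nat.find_spec h3, fun k hk => by_contra fun e =>
      Nat.find_min h3 hk ⟨e, hk.trans (Nat.find_spec h3).2⟩⟩
  set n := f.natDegree with hn'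
  obtain ⟨w, hw, hw'⟩ : ∃ w, w * n < p ∧ p ≤ 2 * (w * n) := by
    refine ⟨(p - 1) / n, by have := Nat.div_mul_le_self (p - 1) n; have := hp.pos; omega, ?_⟩
    have e1 := Nat.lt_div_mul_add (a := p - 1) (b := n) (by omega)
    have e2 := Nat.le_mul_of_pos_left n (Nat.div_pos (a := p - 1) (b := n) (by omega) (by omega))
    omega
  have h4 : (f ^ w).natDegree = w * n := natDegree_pow _ _
  have key : ∑ u ∈ U, taylor u (f ^ w) = ∑ u ∈ U, (f + C u) ^ w := by
    refine eq_of_natDegree_lt_card_of_eval_eq _ _ Function.injective_id (fun i => ?_) ?_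
    · simp only [eval_finsetSum, taylor_eval, eval_pow, hf', eval_add, eval_C, id]
      refine sum_nbij' (fun u => π (i + u) - π i) (fun u => π.symm (π i + u) - i) (fun u hu => ?_) (fun u hu => ?_)
        (fun u _ => by simp) (fun u _ => by simp) (fun u _ => by simp)
      · simpa [h] using hu
      · rw [← h]; simpa using hu
    · rw [ZMod.card, max_lt_iff]
      refine ⟨(natDegree_sum_le_of_forall_le _ _ fun u _ => by rw [natDegree_taylor, h4]).trans_lt hw,
        (natDegree_sum_le_of_forall_le _ _ fun u _ => by rw [natDegree_pow, natDegree_add_C]).trans_lt hw⟩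
  obtain ⟨m, hm⟩ : ∃ m, w * n = r + 1 + m := Nat.exists_eq_add_of_le (by omega)
  have e := congrArg (coeff · m) key
  have e1 : (∑ u ∈ U, taylor u (f ^ w)).coeff m = U.card * (f ^ w).coeff m +
      ((w * n).choose m : ZMod p) * (f ^ w).coeff (w * n) * ∑ u ∈ U, u ^ (r + 1) := by
    simp only [finsetSum_coeff, taylor_coeff]
    rw [sum_congr rfl fun u _ => eval_eq_sum_range' (n := r + 2)
      ((natDegree_hasseDeriv_le _ m).trans_lt (by omega)) u, sum_comm, sum_range_succ, sum_range_succ',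
      sum_eq_zero fun k hk => by rw [← mul_sum, hr' k (mem_range.1 hk), mul_zero], ← mul_sum, ← mul_sum,
      hasseDeriv_coeff, hasseDeriv_coeff, ← hm]
    simp [mul_comm]
  have e2 : (∑ u ∈ U, (f + C u) ^ w).coeff m = U.card * (f ^ w).coeff m := by
    simp only [add_comm f, add_pow, ← C_pow, finsetSum_coeff, mul_assoc, coeff_C_mul]
    rw [sum_comm, sum_range_succ', sum_eq_zero fun k hk => ?_]
    · simp
    rw [← sum_mul]
    rcases lt_or_ge k r with h5 | h5
    · rw [hr' k h5, zero_mul]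
    rw [coeff_mul_natCast, coeff_eq_zero_of_natDegree_lt, zero_mul, mul_zero]
    obtain ⟨j, rfl⟩ := Nat.exists_eq_add_of_lt (mem_range.1 hk)
    rw [natDegree_pow, ← hn', show k + j + 1 - (k + 1) = j by omega]
    nlinarith
  simp only [e1, e2, add_eq_left, mul_eq_zero, hr.1, or_false, ZMod.natCast_eq_zero_iff] at e
  rcases e with e | e
  · exact hw.not_ge (hp.dvd_factorial.1 (e.trans ⟨_, by
      rw [← Nat.choose_mul_factorial_mul_factorial (k := m) (by omega), mul_assoc]⟩))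
  · rw [← h4, coeff_natDegree, leadingCoeff_eq_zero] at e
    rw [eq_zero_of_pow_eq_zero e, natDegree_zero] at hn'; omega

theorem affine_of_inv {p : ℕ} [Fact p.Prime] {U : Finset (ZMod p)} (h0 : U.Nonempty) (h1 : 0 ∉ U)
    (h2 : ∃ x ≠ 0, x ∉ U) (π : Equiv.Perm (ZMod p)) (h : ∀ i j, π i - π j ∈ U ↔ i - j ∈ U) :
    ∃ a b, ∀ i, π i = a * i + b := by
  by_cases h3 : 2 * U.card < p
  · exact affine_of_card h0 h1 h3 π h
  refine affine_of_card (U := (insert 0 U)ᶜ) (h2.imp fun x h => by simp [h]) (by simp) ?_ π fun i j => by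
    simp [h, sub_eq_zero]
  rw [card_compl, card_insert_of_notMem h1, ZMod.card]; have := h0.card_pos; have := (Fact.out : p.Prime).pos; omega

section link

open Matrix

attribute [-simp] zsmul_eq_mul zsmul_one

variable {K ι : Type*} [Fintype ι] [DecidableEq ι]

/-- the all-one matrix -/
def J (ι : Type*) : Matrix ι ι ℤ := of fun _ _ => 1

/-- two-fold transitive families of permutations -/
def Tr2 (σ : K → Equiv.Perm ι) : Prop := ∀ i j i' j', i ≠ j → i' ≠ j' → ∃ k, σ k i = i' ∧ σ k j = j'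

/-- invariant matrices -/
def Inv (σ τ : K → Equiv.Perm ι) (A : Matrix ι ι ℤ) : Prop := ∀ k i j, A (σ k i) (τ k j) = A i j

theorem Inv.mul {σ τ ρ : K → Equiv.Perm ι} {A B : Matrix ι ι ℤ} (h : Inv σ τ A) (h' : Inv τ ρ B) : Inv σ ρ (A * B) :=
  fun k i j => by rw [mul_apply, mul_apply, ← Equiv.sum_comp (τ k)]; simp only [h k, h' k]

omit [Fintype ι] [DecidableEq ι] in
theorem Inv.tr {σ τ : K → Equiv.Perm ι} {A : Matrix ι ι ℤ} (h : Inv σ τ A) : Inv τ σ Aᵀ := fun k i j => h k j i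

omit [Fintype ι] in
theorem Inv.eq [Nontrivial ι] {σ : K → Equiv.Perm ι} (hσ : Tr2 σ) {A : Matrix ι ι ℤ} (h : Inv σ σ A) :
    ∃ n l : ℤ, A = n • 1 + l • J ι := by
  obtain ⟨a, b, hab⟩ := exists_pair_ne ι
  refine ⟨A a a - A a b, A a b, Matrix.ext fun i j => ?_⟩
  rcases eq_or_ne i j with rfl | e
  · obtain ⟨c, hc⟩ := exists_ne i
    obtain ⟨k, rfl, -⟩ := hσ a b i c hab hc.symm
    simp [h k, J]
  · obtain ⟨k, rfl, rfl⟩ := hσ a b i j hab e
    simp [h k, J, e]

omit [Fintype ι] [DecidableEq ι] in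
@[simp] theorem J_tr : (J ι)ᵀ = J ι := rfl

omit [DecidableEq ι] in
theorem J_mul_J : J ι * J ι = (Fintype.card ι : ℤ) • J ι := by ext; simp [J, mul_apply]

theorem Inv.design [Nontrivial ι] {σ τ : K → Equiv.Perm ι} (hσ : Tr2 σ) (hτ : Tr2 τ) {A : Matrix ι ι ℤ} (h : Inv σ τ A)
    (h1 : ∀ i j, A i j * A i j = A i j) : ∃ n l : ℤ, A * Aᵀ = n • 1 + l • J ι ∧ Aᵀ * A = n • 1 + l • J ι ∧
      A * J ι = (n + l) • J ι ∧ J ι * A = (n + l) • J ι ∧ (n + l) ^ 2 = n + l * Fintype.card ι ∧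
      ∀ i, ∑ j, A i j = n + l := by
  obtain ⟨n, l, e⟩ := (h.mul h.tr).eq hσ
  obtain ⟨n', l', e'⟩ := (h.tr.mul h).eq hτ
  have h2 : ∀ i, ∑ j, A i j = n + l := fun i => by simpa [mul_apply, h1, J] using congrFun₂ e i i
  have h3 : ∀ j, ∑ i, A i j = n' + l' := fun i => by simpa [mul_apply, h1, J] using congrFun₂ e' i i
  have h4 : 1 < (Fintype.card ι : ℤ) := by exact_mod_cast Fintype.one_lt_card
  have h5 : n' + l' = n + l := by
    have : ∑ i, ∑ j, A i j = ∑ j, ∑ i, A i j := sum_comm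
    simp only [h2, h3, sum_const, card_univ, nsmul_eq_mul] at this
    exact (mul_left_cancel₀ (by omega) this).symm
  have h6 : A * J ι = (n + l) • J ι := by ext; simp [J, mul_apply, h2]
  have h7 : Aᵀ * J ι = (n + l) • J ι := by ext; simp [J, mul_apply, h3, h5]
  obtain ⟨a⟩ : Nonempty ι := inferInstance
  have h8 : (n + l) ^ 2 = n + l * Fintype.card ι := by
    have := congrArg (· * J ι) e
    simp only [Matrix.mul_assoc, h7, Matrix.mul_smul, h6, Matrix.add_mul, Matrix.smul_mul, J_mul_J] at this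
    simpa [J, sq] using congrFun₂ this a a
  have h9 : (n + l) ^ 2 = n' + l' * Fintype.card ι := by
    have := congrArg (· * J ι) e'
    simp only [Matrix.mul_assoc, h7, Matrix.mul_smul, h6, Matrix.add_mul, Matrix.smul_mul, J_mul_J] at this
    simpa [J, sq] using congrFun₂ this a a
  obtain rfl : l' = l := mul_right_cancel₀ (b := (Fintype.card ι : ℤ) - 1) (by omega) (by linear_combination h8 - h9 - h5)
  obtain rfl : n' = n := by omega
  exact ⟨_, _, e, e', h6, by ext; simp [J, mul_apply, h3], h8, h2⟩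

theorem no_link {p : ℕ} (hp : p.Prime) (hι : Fintype.card ι = p) {σ τ ρ : K → Equiv.Perm ι} (hσ : Tr2 σ) (hτ : Tr2 τ)
    (hρ : Tr2 ρ) {A B : Matrix ι ι ℤ} (h1 : Inv σ τ A) (h2 : Inv τ ρ A) (h3 : Inv σ ρ B)
    (hA : ∀ i j, A i j * A i j = A i j) (hB : ∀ i j, B i j * B i j = B i j) (i : ι) (h4 : 0 < ∑ j, A i j)
    (h5 : ∑ j, A i j < p) (h6 : 1 < ∑ j, B i j) (h7 : ∑ j, B i j + 1 < p) : False := by
  have : Nontrivial ι := Fintype.one_lt_card_iff_nontrivial.1 (hι ▸ hp.one_lt)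
  obtain ⟨m, μ, a1, -, a3, a4, a5, a6⟩ := h1.design hσ hτ hA
  obtain ⟨n, l, b1, b2, b3, b4, b5, b6⟩ := h3.design hσ hρ hB
  obtain ⟨x, y, e⟩ := ((h1.mul h2).mul h3.tr).eq hσ
  rw [a6] at h4 h5
  rw [b6] at h6 h7
  rw [hι] at a5 b5
  have a7 : J ι * Aᵀ = (m + μ) • J ι := by simpa using congrArg transpose a3
  have b7 : J ι * Bᵀ = (n + l) • J ι := by simpa using congrArg transpose b3
  have e1 : n • (A * A) = x • B + (y * (n + l) - l * (m + μ) ^ 2) • J ι := by
    have := congrArg (· * B) e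
    simp only [Matrix.mul_assoc, b2, Matrix.mul_add, Matrix.mul_smul, a3, Matrix.add_mul, Matrix.smul_mul, b4,
      Matrix.mul_one, Matrix.one_mul] at this
    rw [eq_sub_of_add_eq this]; module
  obtain ⟨c, d, e2⟩ : ∃ c d : ℤ, (n ^ 2 * m ^ 2) • (1 : Matrix ι ι ℤ) + c • J ι = (x ^ 2 * n) • 1 + d • J ι := by
    have := congrArg₂ (· * ·ᵀ) e1 e1
    simp only [transpose_smul, transpose_mul, transpose_add, Matrix.mul_smul, Matrix.smul_mul, Matrix.mul_add,
      Matrix.add_mul, Matrix.mul_assoc, ← Matrix.mul_assoc A Aᵀ, a1, b1, J_tr, a7, a3, b3, b7,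
      J_mul_J, Matrix.one_mul] at this
    generalize y * (n + l) - l * (m + μ) ^ 2 = z at this
    exact ⟨n ^ 2 * (m * μ + μ * (m + μ) ^ 2), x ^ 2 * l + 2 * x * z * (n + l) + z ^ 2 * Fintype.card ι,
      Eq.trans (by module) (this.trans (by module))⟩
  obtain ⟨j, hj⟩ := exists_ne i
  have e3 := congrFun₂ e2 i i
  have e4 := congrFun₂ e2 j i
  simp [J, hj] at e3 e4
  have hm : m ≠ 0 := by rintro rfl; nlinarith
  have hl : 0 < l := by nlinarith
  have hn : 0 < n := by nlinarith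
  obtain ⟨s, rfl⟩ : m ∣ x := (Int.pow_dvd_pow_iff two_ne_zero).1
    ⟨n, mul_right_cancel₀ hn.ne' (by linear_combination e4 - e3)⟩
  obtain rfl : n = |s| ^ 2 := mul_left_cancel₀ (a := m ^ 2 * n) (by positivity) (by
    rw [sq_abs]; linear_combination e3 - e4)
  have ht := abs_nonneg s
  generalize |s| = t at *
  have h8 : (p : ℤ) ∣ (t ^ 2 + l - t) * (t ^ 2 + l + t) := ⟨l, by linear_combination b5⟩
  have h9 : t ≤ t ^ 2 := by nlinarith
  rcases (Int.prime_iff_natAbs_prime.2 (by simpa using hp)).dvd_or_dvd h8 with h | ⟨c, h⟩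
  · have := Int.le_of_dvd (by omega) h; omega
  obtain rfl : c = 1 := by
    have : 0 < c := by nlinarith
    have : c < 2 := by nlinarith
    omega
  have : t ^ 2 = t := mul_right_cancel₀ (b := (p : ℤ)) (by omega) (by
    rw [mul_one] at h; rw [← h] at b5 ⊢; linear_combination b5)
  have : t = 1 := mul_left_cancel₀ (a := t) (by rintro rfl; simp at hn) (by linear_combination this)
  omega

end link

end Cfsg.Agent.DT
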