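import Cfsg.Agent.DT.Basic

/-!
Doubly transitive groups of degree `p² + 1`: the kernel on blocks.
-/

set_option autoImplicit false

namespace Cfsg.Agent.DT

open MulAction Subgroup Pointwise

variable {G Ω : Type*} [Group G] [MulAction G Ω]

/-- the kernel of the action on blocks -/
def KK (a : Ω) (R : Subgroup G) : Subgroup G where
  carrier := {g | g • a = a ∧ ∀ y : Ω, ∃ r ∈ R, g • y = r • y}
  one_mem' := ⟨one_smul _ _, fun _ => ⟨1, one_mem _, rfl⟩⟩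
  mul_mem' {g h} hg hh := ⟨by rw [mul_smul, hh.1, hg.1], fun y => by
    obtain ⟨r, h1, e⟩ := hg.2 (h • y)
    obtain ⟨r', h2, e'⟩ := hh.2 y
    exact ⟨r * r', mul_mem h1 h2, by rw [mul_smul, e, e', mul_smul]⟩⟩
  inv_mem' {g} hg := ⟨inv_fix hg.1, fun y => by
    obtain ⟨r, h1, e⟩ := hg.2 (g⁻¹ • y)
    exact ⟨r⁻¹, inv_mem h1, by rw [eq_inv_smul_iff, ← e, smul_inv_smul]⟩⟩

/-- subgroups whose orbits are blocks -/
structure Lin (p : ℕ) (a : Ω) (P R : Subgroup G) : Prop where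
  le : R ≤ P
  card : Nat.card R = p
  blk : ∀ g : G, g • a = a → ∀ y : Ω, ∀ r ∈ R, ∃ r' ∈ R, g • r • y = r' • g • y

variable [Finite G] [Fintype Ω] [FaithfulSMul G Ω]

/-- a regular Sylow subgroup -/
structure Reg (p : ℕ) (a b : Ω) (P : Subgroup G) : Prop extends Ctx G p a b where
  fa : ∀ g ∈ P, g • a = a
  tr : ∀ y ≠ a, ∃ g ∈ P, g • b = y
  cop : (Nat.card (D2 G a b)).Coprime p
  cardP : Nat.card P = p ^ 2

theorem Ctx.exists_reg {p : ℕ} {a b : Ω} (c : Ctx G p a b) {B : Set Ω} (hB : Blk G p a b B) :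
    ∃ P : Subgroup G, Reg p a b P := by
  obtain ⟨P, h1, h2, h3⟩ := c.exists_P
  have h4 := c.coprime hB h1 h2 h3
  refine ⟨P, c, h1, h2, ?_, by rw [← card_orb P b, h4, card_bot, one_mul, c.ncard_orb h1 h2]⟩
  rw [h4, card_bot, eq_comm, Nat.pow_eq_one, or_iff_right c.hp.ne_one, Nat.factorization_eq_zero_iff,
    or_iff_right (not_not.2 c.hp), or_iff_left Nat.card_pos.ne'] at h3
  exact (c.hp.coprime_iff_not_dvd.2 h3).symm

namespace Reg

variable {p : ℕ} {a b : Ω} {P R R' : Subgroup G} (c : Reg p a b P)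

include c

omit [FaithfulSMul G Ω]

omit [Finite G] in
theorem comm {x y : G} (hx : x ∈ P) (hy : y ∈ P) : x * y = y * x :=
  have := Fact.mk c.hp
  congrArg Subtype.val ((IsPGroup.isMulCommutative_of_card_eq_prime_sq c.cardP).is_comm.comm ⟨x, hx⟩ ⟨y, hy⟩)

omit [Finite G] in
theorem pw {g : G} {y : Ω} (h1 : g • a = a) (h2 : g • y = y) (hy : y ≠ a) : g ^ Nat.card (D2 G a b) = 1 := by
  obtain ⟨x, hx, rfl⟩ := c.tr y hy
  have : x⁻¹ * g * x⁻¹⁻¹ ∈ D2 G a b := ⟨by simp [mul_smul, c.fa x hx, h1, inv_fix (c.fa x hx)], by simp [mul_smul, h2]⟩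
  simpa [conj_pow, -inv_inv] using congrArg Subtype.val (pow_card_eq_one' (x := (⟨_, this⟩ : D2 G a b)))

omit [Finite G] in
theorem eq_one {x : G} (hx : x ∈ P) {n : ℕ} (hn : n.Coprime p) (h : x ^ n = 1) : x = 1 := by
  rw [← pow_one x, ← hn.pow_right 2, pow_gcd_eq_one]
  exact ⟨h, c.cardP ▸ congrArg Subtype.val (pow_card_eq_one' (x := (⟨x, hx⟩ : P)))⟩

omit [Finite G] in
theorem free {x x' : G} {y : Ω} (hx : x ∈ P) (hx' : x' ∈ P) (hy : y ≠ a) (h : x • y = x' • y) : x = x' :=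
  have h1 := mul_mem (inv_mem hx') hx
  (inv_mul_eq_one.1 (c.eq_one h1 c.cop (c.pw (c.fa _ h1) (by rw [mul_smul, h, inv_smul_smul]) hy))).symm

omit [Finite G] in
theorem ncard_le (h : R ≤ P) {y : Ω} (hy : y ≠ a) : (orb R y).ncard = Nat.card R := by
  rw [← card_orb R y, (eq_bot_iff.2 fun x hx => c.free (h hx.1) (one_mem _) hy (hx.2.trans (one_smul _ _).symm) :
    R ⊓ stabilizer G y = ⊥), card_bot, one_mul]

omit [Finite G] in
theorem of_blk {B : Set Ω} (hB : Blk G p a b B) : ∃ R, Lin p a P R ∧ orb R b = B := by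
  have e := (c.block_dvd c.fa c.tr hB.na hB.hb fun g h => hB.blk g (c.fa g h)).1
  refine ⟨_, ⟨inf_le_left, by rw [← c.ncard_le inf_le_left c.ne, e, hB.card], fun g hg y r hr => ?_⟩, e⟩
  rcases eq_or_ne y a with rfl | hy
  · exact ⟨1, one_mem _, by rw [c.fa r hr.1, one_smul]⟩
  obtain ⟨x', hx', e'⟩ := c.tr _ (ne_of_fix hg hy)
  obtain ⟨x, hx, rfl⟩ := c.tr y hy
  obtain ⟨r', h1, h2⟩ := e.ge (hB.blk (x'⁻¹ * g * x) (by rw [mul_smul, mul_smul, c.fa x hx, hg, inv_fix (c.fa x' hx')])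
    (by rw [mul_smul, mul_smul, ← e', inv_smul_smul]; exact hB.hb) _ (e.le ⟨r, hr, rfl⟩))
  refine ⟨r', h1, ?_⟩
  rw [← e', ← mul_smul r', c.comm h1.1 hx', mul_smul, h2, ← mul_smul r, c.comm hr.1 hx]
  simp [mul_smul]

omit [Finite G] in
theorem line (l : Lin p a P R) {s : G} (h5 : s • a ≠ a) (h6 : ∀ y ∈ insert a (orb R b), s • y ∈ insert a (orb R b)) :
    False := by
  refine c.no_line ((c.ncard_le l.le c.ne).trans l.card) (fun ⟨r, h, e⟩ => ne_of_fix (c.fa r (l.le h)) c.ne e) ?_ ?_ h5 h6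
  · rintro g hg _ ⟨r, hr, rfl⟩
    obtain ⟨r', h, e⟩ := l.blk g hg.1 b r hr
    exact ⟨r', h, by rw [e, hg.2]⟩
  · rintro _ ⟨r, hr, rfl⟩ _ ⟨r', hr', rfl⟩
    have := mul_mem hr' (inv_mem hr)
    exact ⟨r' * r⁻¹, c.fa _ (l.le this), fun _ ⟨r'', h, e⟩ => ⟨_, mul_mem this h, by rw [mul_smul, e]⟩, by
      simp [mul_smul]⟩

omit [Finite G] in
theorem le_K (l : Lin p a P R) : R ≤ KK a R := fun r h => ⟨c.fa r (l.le h), fun _ => ⟨r, h, rfl⟩⟩

omit [Finite G] [Fintype Ω] c in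
theorem conj_K (l : Lin p a P R) (g : G) (hg : g • a = a) (k : G) (hk : k ∈ KK a R) : g * k * g⁻¹ ∈ KK a R :=
  ⟨by rw [mul_smul, mul_smul, inv_fix hg, hk.1, hg], fun y => by
    obtain ⟨r, h, e⟩ := hk.2 (g⁻¹ • y)
    obtain ⟨r', h', e'⟩ := l.blk g hg (g⁻¹ • y) r h
    exact ⟨r', h', by rw [mul_smul, mul_smul, e, e', smul_inv_smul]⟩⟩

omit [Finite G] in
theorem eq_bot [FaithfulSMul G Ω] (l : Lin p a P R) {N : Subgroup G} (h1 : N ≤ KK a R) {z : Ω} (hz : z ≠ a)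
    (h2 : ∀ n ∈ N, n • z = z) (h3 : ∀ r ∈ R, ∀ n ∈ N, r * n * r⁻¹ ∈ N) : N = ⊥ := by
  refine eq_bot_of_fx (fun n h => (h1 h).1) fun y hy => ⟨hy, fun n hn => ?_⟩
  obtain ⟨r, hr, e⟩ := (h1 hn).2 y
  have key : ∀ j : ℕ, r ^ j * (r⁻¹ * n) ^ j ∈ N := fun j => by
    induction j with
    | zero => simp
    | succ j ih => simpa [pow_succ' r, pow_succ (r⁻¹ * n), mul_assoc] using mul_mem (h3 r hr _ ih) hn
  have h4 := key (Nat.card (D2 G a b))
  rw [c.pw (g := r⁻¹ * n) (by rw [mul_smul, (h1 hn).1, inv_fix (c.fa r (l.le hr))]) (by rw [mul_smul, e, inv_smul_smul]) hy,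
    mul_one] at h4
  rw [e, c.eq_one (l.le hr) (c.cop.mul_left c.cop) (by rw [pow_mul, c.pw (h1 h4).1 (h2 _ h4) hz]), one_smul]

omit [Finite G] in
theorem faith [FaithfulSMul G Ω] (l : Lin p a P R) {y : Ω} (hy : y ≠ a) {k k' : G} (hk : k ∈ KK a R)
    (hk' : k' ∈ KK a R) (h : ∀ r ∈ R, k • r • y = k' • r • y) : k = k' := by
  have := c.eq_bot l (N := KK a R ⊓ ⨅ r ∈ R, stabilizer G (r • y)) inf_le_left hy
    (fun n hn => by simpa using mem_iInf.1 (mem_iInf.1 hn.2 1) (one_mem _)) fun r hr n hn =>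
      ⟨conj_K l r (c.fa r (l.le hr)) n hn.1, mem_iInf.2 fun r' => mem_iInf.2 fun hr' => by
        have := mem_iInf.1 (mem_iInf.1 hn.2 _) (mul_mem (inv_mem hr) hr')
        simp only [mem_stabilizer_iff, mul_smul] at this ⊢
        rw [this, smul_inv_smul]⟩
  exact (inv_mul_eq_one.1 (this.le ⟨(KK a R).mul_mem (inv_mem hk') hk, mem_iInf.2 fun r => mem_iInf.2 fun hr => by
    rw [mem_stabilizer_iff, mul_smul, h r hr, inv_smul_smul]⟩)).symm

omit [Finite G] [Fintype Ω] c in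
theorem gen (hp : p.Prime) (l : Lin p a P R) {r r' : G} (hr : r ∈ R) (h1 : r ≠ 1) (hr' : r' ∈ R) : r' ∈ zpowers r := by
  have := Fact.mk hp
  obtain ⟨n, e⟩ := mem_zpowers_of_prime_card l.card (g := ⟨r, hr⟩) (g' := ⟨r', hr'⟩) (mt (congrArg Subtype.val) h1)
  exact ⟨n, congrArg Subtype.val e⟩

theorem one_fix [FaithfulSMul G Ω] (l : Lin p a P R) (hE : KK a R ⊓ stabilizer G b ≠ ⊥) {r : G} (hr : r ∈ R)
    {x : G} (hx : x ∈ P) (h1 : x • b ∈ fx (KK a R ⊓ stabilizer G b) a)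
    (h2 : r • x • b ∈ fx (KK a R ⊓ stabilizer G b) a) : r = 1 := by
  by_contra h3
  have key : ∀ g ∈ P, g • b ∈ fx (KK a R ⊓ stabilizer G b) a → g⁻¹ ∈ normalizer (KK a R ⊓ stabilizer G b : Set G) :=
    fun g hg h => mem_normalizer_fintype fun n hn => ⟨conj_K l _ (inv_fix (c.fa g hg)) n hn.1, show _ • b = b by
      rw [inv_inv, mul_smul, mul_smul, h.2 n hn, inv_smul_smul]⟩
  have h4 := mul_mem (inv_mem (key _ (mul_mem (l.le hr) hx) (mul_smul r x b ▸ h2))) (key x hx h1)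
  rw [inv_inv, mul_inv_cancel_right] at h4
  exact hE (c.eq_bot l inf_le_left c.ne (fun _ h => h.2) fun r' hr' n hn =>
    (mem_set_normalizer_iff.1 (zpowers_le.2 h4 (gen c.hp l hr h3 hr')) n).1 hn)

omit [Finite G] in
theorem uniq (l : Lin p a P R) (l' : Lin p a P R') (h : R ⊓ R' = ⊥) {s s' t t' : G} (h1 : s ∈ R) (h2 : s' ∈ R')
    (h3 : t ∈ R) (h4 : t' ∈ R') (e : s • s' • b = t • t' • b) : s = t ∧ s' = t' := by
  rw [← mul_smul, ← mul_smul] at e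
  replace e := c.free (mul_mem (l.le h1) (l'.le h2)) (mul_mem (l.le h3) (l'.le h4)) c.ne e
  obtain rfl : t = s := inv_mul_eq_one.1 (h.le ⟨R.mul_mem (inv_mem h3) h1, by
    rw [show t⁻¹ * s = t' * s'⁻¹ by rw [inv_mul_eq_iff_eq_mul, ← mul_assoc, ← e, mul_inv_cancel_right]]
    exact R'.mul_mem h4 (inv_mem h2)⟩)
  exact ⟨rfl, mul_left_cancel e⟩

omit [Finite G] in
theorem surj {α : Type*} (f : α → Ω) (h1 : Function.Injective f) (h2 : ∀ x, f x ≠ a) (h3 : Nat.card α = p ^ 2) :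
    ∀ y ≠ a, ∃ x, f x = y :=
  (Set.eq_of_subset_of_ncard_le (s := Set.range f) (t := {y | y ≠ a}) (by rintro _ ⟨x, rfl⟩; exact h2 x)
    (by rw [c.ncard_ne, Set.ncard_range_of_injective h1, h3])).ge

omit [Finite G] in
theorem grid (l : Lin p a P R) (l' : Lin p a P R') (h : R ⊓ R' = ⊥) {g : G} (hg : g ∈ D2 G a b) {r r' : G}
    (hr : r ∈ R) (hr' : r' ∈ R') : g • r • r' • b = r • r' • b ↔ g • r • b = r • b ∧ g • r' • b = r' • b := by
  have u := @c.uniq _ _ _ _ _ _ _ _ _ _ _ l l' h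
  have cm : ∀ {s s'}, s ∈ R → s' ∈ R' → s' • s • b = s • s' • b := fun h1 h2 => by
    rw [← mul_smul, ← mul_smul, c.comm (l.le h1) (l'.le h2)]
  obtain ⟨s, h1, e1⟩ := l.blk g hg.1 b r hr
  obtain ⟨s', h2, e2⟩ := l'.blk g hg.1 b r' hr'
  obtain ⟨t, h3, e3⟩ := l.blk g hg.1 (r' • b) r hr
  obtain ⟨t', h4, e4⟩ := l'.blk g hg.1 (r • b) r' hr'
  rw [show g • b = b from hg.2] at e1 e2
  rw [e2] at e3
  rw [e1, cm hr hr', cm h1 h4, e3] at e4
  obtain ⟨rfl, rfl⟩ := u h3 h2 h1 h4 e4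
  rw [e1, e2, e3]
  exact ⟨fun e => by rw [(u h3 h2 hr hr' e).1, (u h3 h2 hr hr' e).2]; exact ⟨rfl, rfl⟩, fun e => by rw [e.2, ← cm h3 hr', e.1, cm hr hr']⟩

theorem no_grid [FaithfulSMul G Ω] (l : Lin p a P R) (hE : KK a R ⊓ stabilizer G b ≠ ⊥) :
    (fx (KK a R ⊓ stabilizer G b) a).ncard ≠ p := fun h0 => by
  set E := KK a R ⊓ stabilizer G b
  obtain ⟨R', l', e⟩ := c.of_blk (B := fx E a) ⟨fun h => h.1 rfl, ⟨c.ne, fun _ h => h.2⟩, h0, fun g hg =>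
    fx_conj hg fun n hn => by simpa using conj_K l _ (inv_fix hg) n hn⟩
  have h1 : R ⊓ R' = ⊥ := eq_bot_iff.2 fun r hr => c.one_fix l hE hr.1 (one_mem _)
    (by rw [one_smul]; exact ⟨c.ne, fun _ h => h.2⟩) (by rw [one_smul, ← e]; exact ⟨r, hr.2, rfl⟩)
  obtain ⟨t, ht, ht'⟩ := c.two c.ne.symm c.ne
  have h2 : ∀ y, t⁻¹ • y ∈ insert a (orb R' b) ↔ ∀ n ∈ E, (t * n * t⁻¹) • y = y := fun y => by
    simp only [e, mul_smul, ← eq_inv_smul_iff (g := t)]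
    exact ⟨by rintro (h | h); exacts [fun n hn => h ▸ hn.1.1, h.2], fun h => or_iff_not_imp_left.2 fun h' => ⟨h', h⟩⟩
  have h3 : ∀ n ∈ E, t * n * t⁻¹ ∈ D2 G a b := fun n hn => ⟨show _ • a = a by
    rw [mul_smul, mul_smul, inv_smul_eq_iff.2 ht'.symm, hn.2, ht'], show _ • b = b by
    rw [mul_smul, mul_smul, inv_smul_eq_iff.2 ht.symm, hn.1.1, ht]⟩
  set T := {y | t⁻¹ • y ∈ insert a (orb R' b)}
  have ha : a ∈ T := (h2 a).2 fun n hn => (h3 n hn).1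
  have h4 : (T \ {a}).ncard = p := by
    rw [Set.ncard_sdiff_singleton_of_mem (s := T) ha, show T = t • insert a (orb R' b) from
      Set.ext fun y => (Set.mem_smul_set_iff_inv_smul_mem (a := t) (A := insert a (orb R' b)) (x := y)).symm, Set.ncard_smul_set, e,
      Set.ncard_insert_of_notMem fun h => h.1 rfl, h0]; rfl
  have h5 : {r ∈ R | r • b ∈ T}.ncard * {r ∈ R' | r • b ∈ T}.ncard = p := by
    have h6 : ∀ r ∈ R, ∀ r' ∈ R', r • r' • b ≠ a := fun r h r' h' =>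
      ne_of_fix (c.fa _ (l.le h)) (ne_of_fix (c.fa _ (l'.le h')) c.ne)
    rw [← h4, ← Set.ncard_prod]
    refine Set.ncard_congr (fun x _ => x.1 • x.2 • b) (fun x hx => ⟨(h2 _).2 fun n hn =>
      (c.grid l l' h1 (h3 n hn) hx.1.1 hx.2.1).2 ⟨(h2 _).1 hx.1.2 n hn, (h2 _).1 hx.2.2 n hn⟩, h6 _ hx.1.1 _ hx.2.1⟩)
      (fun x y hx hy e => Prod.ext_iff.2 (c.uniq l l' h1 hx.1.1 hx.2.1 hy.1.1 hy.2.1 e)) fun y hy => ?_
    obtain ⟨⟨r, r'⟩, rfl⟩ := c.surj (fun x : R × R' => (x.1 : G) • (x.2 : G) • b) (fun x y e => Prod.ext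
      (Subtype.ext (c.uniq l l' h1 x.1.2 x.2.2 y.1.2 y.2.2 e).1) (Subtype.ext (c.uniq l l' h1 x.1.2 x.2.2 y.1.2 y.2.2 e).2))
      (fun x => h6 _ x.1.2 _ x.2.2) (by rw [Nat.card_prod, l.card, l'.card, sq]) y hy.2
    have := fun n hn => (c.grid l l' h1 (h3 n hn) r.2 r'.2).1 ((h2 _).1 hy.1 n hn)
    exact ⟨(r, r'), ⟨⟨r.2, (h2 _).2 fun n hn => (this n hn).1⟩, r'.2, (h2 _).2 fun n hn => (this n hn).2⟩, rfl⟩
  obtain ⟨r', hr', h6⟩ := (R'.bot_or_exists_ne_one).resolve_left fun e => c.hp.ne_one (by rw [← l'.card, e, card_bot])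
  have key : ∀ {S}, Lin p a P S → {r ∈ S | r • b ∈ T}.ncard = p → False := fun {S} l h => by
    have h7 : T = insert a (orb S b) := by
      have := Set.eq_of_subset_of_ncard_le (s := {r ∈ S | r • b ∈ T}) (t := S) (fun _ h => h.1)
        (by rw [h, ← l.card]; rfl)
      rw [Set.eq_of_subset_of_ncard_le (s := orb S b) (t := T \ {a}) (fun y ⟨r, h2, e⟩ =>
          e ▸ ⟨(this.ge h2).2, ne_of_fix (c.fa r (l.le h2)) c.ne⟩) (by rw [h4, c.ncard_le l.le c.ne, l.card]),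
        Set.insert_sdiff_singleton, Set.insert_eq_of_mem ha]
    refine c.line l (s := t * r' * t⁻¹) (fun e => h6 (c.free (l'.le hr') (one_mem _) c.ne ?_)) fun y hy => ?_
    · rwa [mul_smul, mul_smul, inv_smul_eq_iff.2 ht'.symm, ← ht', smul_left_cancel_iff, ← one_smul G b,
        smul_smul, mul_one] at e
    · rw [← h7] at hy ⊢
      change t⁻¹ • _ ∈ insert a (orb R' b)
      rw [mul_smul, mul_smul, inv_smul_smul]
      rcases hy with h | ⟨r, h, e⟩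
      exacts [Or.inl (by rw [h, c.fa _ (l'.le hr')]), Or.inr ⟨_, mul_mem hr' h, by rw [mul_smul, e]⟩]
  rcases (Nat.dvd_prime c.hp).1 (Dvd.intro _ h5) with h | h
  · exact key l' (by rwa [h, one_mul] at h5)
  · exact key l h

end Reg

end Cfsg.Agent.DT
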