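import Cfsg.Agent.DT.Grid

/-!
Doubly transitive groups of degree `p² + 1`: the final contradictions.
-/

set_option autoImplicit false

namespace Cfsg.Agent.DT

open MulAction Subgroup Pointwise

variable {G Ω : Type*} [Group G] [MulAction G Ω]

/-- coordinates on a subgroup of order `p` -/
structure Crd {p : ℕ} (R : Subgroup G) (ρ : ZMod p → G) : Prop where
  mem : ∀ i, ρ i ∈ R
  add : ∀ i j, ρ (i + j) = ρ i * ρ j
  inj : Function.Injective ρ
  surj : ∀ r ∈ R, ∃ i, ρ i = r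

theorem exists_crd {p : ℕ} [Fact p.Prime] {R : Subgroup G} (h : Nat.card R = p) : ∃ ρ : ZMod p → G, Crd R ρ :=
  let φ : Multiplicative (ZMod p) ≃* R := mulEquivOfPrimeCardEq (p := p) (by simp) h
  ⟨fun i => φ (.ofAdd i), fun _ => (φ _).2, fun i j => by rw [ofAdd_add, map_mul]; rfl,
    Subtype.val_injective.comp (φ.injective.comp Multiplicative.ofAdd.injective),
    fun r hr => ⟨(φ.symm ⟨r, hr⟩).toAdd, by simp⟩⟩

theorem Crd.zero {p : ℕ} {R : Subgroup G} {ρ : ZMod p → G} (h : Crd R ρ) : ρ 0 = 1 := by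
  simpa using h.add 0 0

theorem Crd.conj {p : ℕ} [NeZero p] {R : Subgroup G} {ρ : ZMod p → G} (h : Crd R ρ) {g : G} {α : ZMod p}
    (e : g * ρ 1 * g⁻¹ = ρ α) (i : ZMod p) : g * ρ i * g⁻¹ = ρ (α * i) := by
  obtain ⟨n, rfl⟩ := ZMod.natCast_zmod_surjective i
  induction n with
  | zero => simp [h.zero]
  | succ n ih => rw [Nat.cast_succ, mul_add, h.add, h.add, ← ih, mul_one, ← e]; group

variable [Finite G] [Fintype Ω] [FaithfulSMul G Ω]

namespace Reg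

variable {p : ℕ} [Fact p.Prime] {a b : Ω} {P R : Subgroup G} (c : Reg p a b P) (l : Lin p a P R) {ρ : ZMod p → G}
  (hρ : Crd R ρ)

include c l hρ

omit [Finite G] [FaithfulSMul G Ω] [Fact p.Prime] in
theorem cinj {y : Ω} (hy : y ≠ a) {i j : ZMod p} (h : ρ i • y = ρ j • y) : i = j :=
  hρ.inj (c.free (l.le (hρ.mem i)) (l.le (hρ.mem j)) hy h)

omit [Finite G] [FaithfulSMul G Ω] in
theorem exists_σ {y : Ω} (hy : y ≠ a) : ∃ σ : KK a R → Equiv.Perm (ZMod p),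
    ∀ (k : KK a R) i, (k : G) • ρ i • y = ρ (σ k i) • y := by
  have : ∀ (k : KK a R) i, ∃ j, (k : G) • ρ i • y = ρ j • y := fun k i => by
    obtain ⟨r, hr, e⟩ := k.2.2 (ρ i • y)
    obtain ⟨j, rfl⟩ := hρ.surj r hr
    exact ⟨j + i, by rw [e, hρ.add, mul_smul]⟩
  choose f hf using this
  exact ⟨fun k => Equiv.ofBijective (f k) (Finite.injective_iff_bijective.1 fun i j e => c.cinj l hρ hy
    (MulAction.injective (k : G) (by simp only [hf, e]))), hf⟩

omit [Finite G] in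
theorem tr2_or {y : Ω} (hy : y ≠ a) {σ : KK a R → Equiv.Perm (ZMod p)}
    (h : ∀ (k : KK a R) i, (k : G) • ρ i • y = ρ (σ k i) • y) : Tr2 σ ∨ ∀ k ∈ KK a R, ∃ α, k * ρ 1 * k⁻¹ = ρ α := by
  classical
  have h1 : ∀ k k' i, σ (k * k') i = σ k (σ k' i) := fun k k' i =>
    c.cinj l hρ hy (by rw [← h, ← h, ← h, coe_mul, mul_smul])
  have h2 : ∀ j i, σ ⟨ρ j, c.le_K l (hρ.mem j)⟩ i = j + i := fun j i =>
    c.cinj l hρ hy (by rw [← h, hρ.add, mul_smul])
  have h0 : ∀ k i, σ k⁻¹ (σ k i) = i := fun k i => c.cinj l hρ hy (by rw [← h, ← h, coe_inv, inv_smul_smul])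
  have h3 : ∀ u k i j, (∃ k', σ k' u - σ k' 0 = i - j) → ∃ k', σ k' u - σ k' 0 = σ k i - σ k j := by
    rintro u k i j ⟨k', e⟩
    refine ⟨k * ⟨ρ (j - σ k' 0), c.le_K l (hρ.mem _)⟩ * k', ?_⟩
    simp only [h1, h2, sub_add_cancel]
    rw [show j - σ k' 0 + σ k' u = i by linear_combination e]
  refine or_iff_not_imp_right.2 fun hn i j i' j' e e' => ?_
  suffices ∀ u ≠ 0, ∀ v ≠ 0, ∃ k, σ k u - σ k 0 = v by
    obtain ⟨k, hk⟩ := this (i - j) (sub_ne_zero.2 e) (i' - j') (sub_ne_zero.2 e')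
    refine ⟨⟨ρ (j' - σ k 0), c.le_K l (hρ.mem _)⟩ * k * ⟨ρ (-j), c.le_K l (hρ.mem _)⟩, ?_⟩
    simp only [h1, h2, neg_add_cancel, sub_add_cancel, neg_add_eq_sub, and_true]
    linear_combination hk
  intro u hu v hv
  by_contra h4
  refine hn fun k hk => ?_
  obtain ⟨α, β, e⟩ := affine_of_inv (U := Finset.univ.filter fun v => ∃ k, σ k u - σ k 0 = v)
    ⟨_, Finset.mem_filter.2 ⟨Finset.mem_univ _, 1, rfl⟩⟩ (by simp [sub_eq_zero, hu]) ⟨v, hv, by simpa using h4⟩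
    (σ ⟨k, hk⟩) fun i j => by
      simp only [Finset.mem_filter, Finset.mem_univ, true_and]
      exact ⟨fun h => by simpa only [h0] using h3 u (⟨k, hk⟩ : KK a R)⁻¹ _ _ h, h3 u _ i j⟩
  refine ⟨α, mul_inv_eq_iff_eq_mul.2 (c.faith l hy (mul_mem hk (c.le_K l (hρ.mem _)))
    (mul_mem (c.le_K l (hρ.mem _)) hk) fun r hr => ?_)⟩
  obtain ⟨i, rfl⟩ := hρ.surj r hr
  have := h ⟨k, hk⟩
  simp only [e] at this
  rw [mul_smul, mul_smul, this, smul_smul (ρ 1), smul_smul (ρ α), ← hρ.add, ← hρ.add, this]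
  congr 2; ring

theorem no_norm (hE : KK a R ⊓ stabilizer G b ≠ ⊥) {x : G} (hx : x ∈ P)
    (h : ∀ k ∈ KK a R, ∃ α, k * ρ 1 * k⁻¹ = ρ α) : ∃ i, ρ i • x • b ∈ fx (KK a R ⊓ stabilizer G b) a := by
  obtain ⟨e, he, h1⟩ := (bot_or_exists_ne_one _).resolve_left hE
  have h2 : ∀ k ∈ KK a R, ∃ α, ∀ i (y : Ω), k • ρ i • y = ρ (α * i) • k • y := fun k hk => (h k hk).imp fun α h i y => by
    rw [← hρ.conj h, mul_smul, mul_smul, inv_smul_smul]
  have hy := ne_of_fix (c.fa x hx) c.ne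
  obtain ⟨α, h3⟩ := h2 e he.1
  have h4 : 1 - α ≠ 0 := fun h4 => h1 (c.faith l c.ne he.1 (one_mem _) fun r hr => by
    obtain ⟨i, rfl⟩ := hρ.surj r hr
    rw [h3, he.2, ← sub_eq_zero.1 h4, one_mul, one_smul])
  obtain ⟨r, hr, h5⟩ := he.1.2 (x • b)
  obtain ⟨β, rfl⟩ := hρ.surj r hr
  have h6 : ∀ i, e • ρ i • x • b = ρ i • x • b ↔ i = β / (1 - α) := fun i => by
    rw [h3, h5, smul_smul, ← hρ.add, eq_div_iff h4]
    exact ⟨fun h => by linear_combination -c.cinj l hρ hy h, fun h => by congr 2; linear_combination -h⟩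
  refine ⟨β / (1 - α), ne_of_fix (c.fa _ (l.le (hρ.mem _))) hy, fun k hk => ?_⟩
  obtain ⟨α', h7⟩ := h2 k hk.1
  have h8 : e * k = k * e := c.faith l c.ne (mul_mem he.1 hk.1) (mul_mem hk.1 he.1) fun r hr => by
    obtain ⟨i, rfl⟩ := hρ.surj r hr
    rw [mul_smul, mul_smul, h3, h7, h3, h7, he.2, hk.2, he.2, mul_left_comm]
  obtain ⟨r, hr, h9⟩ := hk.1.2 (ρ (β / (1 - α)) • x • b)
  obtain ⟨j, rfl⟩ := hρ.surj r hr
  rw [smul_smul (ρ j), ← hρ.add] at h9
  rw [h9, (h6 (j + _)).1 (by rw [← h9, smul_smul e, h8, mul_smul, (h6 _).2 rfl])]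

omit hρ in
theorem no_diff (h2 : p ≠ 2) (hE : KK a R ⊓ stabilizer G b ≠ ⊥) : (fx (KK a R ⊓ stabilizer G b) a).ncard ≠ 1 := by
  classical
  intro h0
  obtain ⟨ρ, hρ⟩ := exists_crd l.card
  obtain ⟨z, hz⟩ := Set.ncard_eq_one.1 h0
  have h1 : ∀ x ∈ P, x ∉ R → ∀ i, ρ i • x • b ∉ fx (KK a R ⊓ stabilizer G b) a := fun x hx h i e => h (by
    have := (hz.le e).trans (hz.le (show b ∈ _ from ⟨c.ne, fun _ h => h.2⟩)).symm
    rw [smul_smul, ← one_smul G b, smul_smul, mul_one] at this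
    rw [eq_inv_of_mul_eq_one_right (c.free (mul_mem (l.le (hρ.mem i)) hx) (one_mem _) c.ne this)]
    exact inv_mem (hρ.mem i))
  obtain ⟨x, hx, h3⟩ : ∃ x ∈ P, x ∉ R := by
    by_contra! h
    have := card_le_of_le (show P ≤ R from h)
    rw [l.card, c.cardP] at this
    have := c.hp.one_lt; nlinarith
  have h4 : x * x ∉ R := fun h => h3 (by
    obtain ⟨m, hm⟩ := (c.hp.odd_of_ne_two h2).pow (n := 2)
    have := congrArg Subtype.val (pow_card_eq_one' (x := (⟨x, hx⟩ : P)))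
    rw [c.cardP, hm, coe_pow, pow_succ, pow_mul, sq] at this
    exact (show x = _ from eq_inv_of_mul_eq_one_right this) ▸ inv_mem (pow_mem h m))
  have h5 : ∀ y ∈ P, ∃ σ : KK a R → Equiv.Perm (ZMod p), (∀ (k : KK a R) i, (k : G) • ρ i • y • b = ρ (σ k i) • y • b) ∧ Tr2 σ :=
    fun y hy => (c.exists_σ l hρ (ne_of_fix (c.fa y hy) c.ne)).imp fun σ h => ⟨h,
      (c.tr2_or l hρ (ne_of_fix (c.fa y hy) c.ne) h).resolve_right fun e =>
        (c.no_norm l hρ hE hx e).elim (h1 x hx h3)⟩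
  choose! σ hσ hσ' using h5
  let A : G → Matrix (ZMod p) (ZMod p) ℤ := fun y i j => if ∃ k, σ 1 k 0 = i ∧ σ y k 0 = j then 1 else 0
  have hm : ∀ y ∈ P, ∀ k k' i, σ y (k * k') i = σ y k (σ y k' i) := fun y hy k k' i =>
    c.cinj l hρ (ne_of_fix (c.fa y hy) c.ne) (by rw [← hσ y hy, ← hσ y hy, ← hσ y hy, coe_mul, mul_smul])
  have hi : ∀ y ∈ P, ∀ k i, σ y k⁻¹ (σ y k i) = i := fun y hy k i =>
    c.cinj l hρ (ne_of_fix (c.fa y hy) c.ne) (by rw [← hσ y hy, ← hσ y hy, coe_inv, inv_smul_smul])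
  have h6 : ∀ y ∈ P, Inv (σ 1) (σ y) (A y) := fun y hy k i j => if_congr
    ⟨fun ⟨k', e, e'⟩ => ⟨k⁻¹ * k', by rw [hm 1 (one_mem _), e, hi 1 (one_mem _)], by rw [hm y hy, e', hi y hy]⟩,
      fun ⟨k', e, e'⟩ => ⟨k * k', by rw [hm 1 (one_mem _), e], by rw [hm y hy, e']⟩⟩ rfl rfl
  have h7 : ∀ y ∈ P, ∀ (k : KK a R) i, σ (x * y) k i = σ y ⟨x⁻¹ * k * x⁻¹⁻¹, conj_K l _ (inv_fix (c.fa x hx)) _ k.2⟩ i :=
    fun y hy k i => c.cinj l hρ (ne_of_fix (c.fa _ (mul_mem hx hy)) c.ne) (by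
      have e : ∀ j, ρ j • (x * y) • b = x • ρ j • y • b := fun j => by
        rw [mul_smul, smul_smul, c.comm (l.le (hρ.mem j)) hx, mul_smul]
      rw [← hσ _ (mul_mem hx hy), e, e, ← hσ y hy]; simp [mul_smul])
  have h8 : ∀ y ∈ P, y ∉ R → 1 < ∑ j, A y 0 j ∧ ∑ j, A y 0 j + 1 < p := fun y hy hy' => by
    have hb := ne_of_fix (c.fa y hy) c.ne
    have e1 : ∀ k, σ 1 k 0 = 0 ↔ (k : G) • b = b := fun k => by
      have := hσ 1 (one_mem _) k 0
      rw [hρ.zero, one_smul, one_smul] at this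
      exact ⟨fun h => by rw [this, h, hρ.zero, one_smul], fun h =>
        c.cinj l hρ c.ne (by rw [← this, h, hρ.zero, one_smul])⟩
    set O := Finset.univ.filter fun j => ∃ k, σ 1 k 0 = 0 ∧ σ y k 0 = j
    have e2 : ∀ k, σ 1 k 0 = 0 → ∀ j, σ y k j ∈ O ↔ j ∈ O := fun k hk j => by
      have := h6 y hy k 0 j
      simp only [A, hk] at this
      simp only [O, Finset.mem_filter, Finset.mem_univ, true_and]
      split_ifs at this with u v v
      exacts [iff_of_true u v, absurd this one_ne_zero, absurd this zero_ne_one, iff_of_false u v]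
    have e3 : ∀ S : Finset (ZMod p), (∀ k, σ 1 k 0 = 0 → ∀ j ∈ S, σ y k j ∈ S) → S.card ≠ 1 := fun S h e => by
      obtain ⟨j, rfl⟩ := Finset.card_eq_one.1 e
      exact h1 y hy hy' j ⟨ne_of_fix (c.fa _ (l.le (hρ.mem _))) hb, fun k hk => (hσ y hy ⟨k, hk.1⟩ j).trans (by
        rw [Finset.mem_singleton.1 (h ⟨k, hk.1⟩ ((e1 _).2 hk.2) j (Finset.mem_singleton_self j))])⟩
    have e4 := e3 O fun k hk j => (e2 k hk j).2
    have e5 := e3 Oᶜ fun k hk j => by simp only [Finset.mem_compl, e2 k hk j, imp_self]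
    have e6 : 0 < O.card := Finset.card_pos.2 ⟨_, Finset.mem_filter.2 ⟨Finset.mem_univ _, 1, (e1 1).2 (one_smul _ _), rfl⟩⟩
    have e7 : O.card ≠ p := fun e => c.hp.not_dvd_one (by
      have : (orb (KK a R ⊓ stabilizer G b) (y • b)).ncard = p := by
        rw [← e, ← Set.ncard_coe_finset]
        refine (Set.ncard_congr (fun j _ => ρ j • y • b) (fun j hj => ?_) (fun i j _ _ => c.cinj l hρ hb) ?_).symm
        · obtain ⟨k, h, rfl⟩ := (Finset.mem_filter.1 hj).2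
          exact ⟨k, ⟨k.2, (e1 k).1 h⟩, by rw [← hσ y hy, hρ.zero, one_smul]⟩
        · rintro _ ⟨k, hk, rfl⟩
          exact ⟨_, Finset.mem_filter.2 ⟨Finset.mem_univ _, ⟨k, hk.1⟩, (e1 _).2 hk.2, rfl⟩, by
            rw [← hσ y hy, hρ.zero, one_smul]⟩
      rw [← c.cop.symm.gcd_eq_one]
      exact Nat.dvd_gcd dvd_rfl ((Dvd.intro_left _ (this ▸ card_orb _ (y • b))).trans
        (card_dvd_of_le (inf_le_inf_right _ fun _ (h : _ ∈ KK a R) => h.1))))
    have e8 := Finset.card_le_univ O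
    rw [Finset.card_compl] at e5
    rw [ZMod.card] at e5 e8
    rw [show ∑ j, A y 0 j = O.card from Finset.sum_boole _ _]
    omega
  have h9 : ∀ y i j, A y i j * A y i j = A y i j := fun y i j => by simp only [A]; split_ifs <;> rfl
  exact no_link c.hp (ZMod.card p) (hσ' 1 (one_mem _)) (hσ' x hx) (hσ' _ (mul_mem hx hx)) (h6 x hx)
    (fun k i j => by rw [h7 x hx, ← h6 x hx _ i j, ← h7 1 (one_mem _), mul_one]) (h6 _ (mul_mem hx hx)) (h9 _) (h9 _) 0
    (by have := (h8 x hx h3).1; omega) (by have := (h8 x hx h3).2; omega) (h8 _ (mul_mem hx hx) h4).1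
    (h8 _ (mul_mem hx hx) h4).2

omit [Finite G] [Fact p.Prime] hρ in
theorem norm_R (hE : KK a R ⊓ stabilizer G b = ⊥) {g : G} (hg : g • a = a) {r : G} (hr : r ∈ R) : g * r * g⁻¹ ∈ R := by
  have h := conj_K l g hg r (c.le_K l hr)
  obtain ⟨r', h', e⟩ := h.2 b
  exact inv_mul_eq_one.1 (hE.le ⟨(KK a R).mul_mem (inv_mem (c.le_K l h')) h, show _ • b = b by
    rw [mul_smul, e, inv_smul_smul]⟩) ▸ h'

omit hρ in
theorem cent_R (hE : KK a R ⊓ stabilizer G b = ⊥) : (stabilizer G a ⊓ centralizer R) ⊓ stabilizer G b = ⊥ := by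
  by_contra h0
  set C := stabilizer G a ⊓ centralizer (R : Set G)
  have h1 : orb R b ⊆ fx (C ⊓ stabilizer G b) a := by
    rintro _ ⟨r, hr, rfl⟩
    exact ⟨ne_of_fix (c.fa r (l.le hr)) c.ne, fun g hg => by rw [smul_smul, ← hg.1.2 r hr, mul_smul, hg.2]⟩
  have h2 := (c.ncard_le l.le c.ne).trans l.card
  have h3 : orb R b = fx (C ⊓ stabilizer G b) a := Set.eq_of_subset_of_ncard_le h1 (by
    rcases c.fx_card (H := C) (fun _ h => h.1) (fun y hy => (c.tr y hy).imp fun x h =>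
      ⟨⟨c.fa x h.1, fun r hr => c.comm (l.le hr) h.1⟩, h.2⟩) (fun g h n h' => mul_mem (mul_mem h h') (inv_mem h))
      (fun _ h => h.1) h0 with e | e <;> rw [e, h2]
    exact c.hp.pos)
  obtain ⟨t, ht, ht'⟩ := c.two c.ne.symm c.ne
  have h4 : ∀ n ∈ C ⊓ stabilizer G b, t * n * t⁻¹ ∈ D2 G a b := fun n hn => ⟨show _ • a = a by
    rw [mul_smul, mul_smul, inv_smul_eq_iff.2 ht'.symm, hn.2, ht'], show _ • b = b by
    rw [mul_smul, mul_smul, inv_smul_eq_iff.2 ht.symm, hn.1.1, ht]⟩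
  by_cases h5 : ∀ n ∈ C ⊓ stabilizer G b, t * n * t⁻¹ ∈ centralizer (R : Set G)
  · refine c.line l (s := t⁻¹) (by rw [inv_smul_eq_iff.2 ht'.symm]; exact c.ne) fun y hy =>
      or_iff_not_imp_left.2 fun e => h3 ▸ ⟨e, fun n hn => ?_⟩
    rw [eq_inv_smul_iff, smul_smul, smul_smul]
    exact hy.elim (fun e => e ▸ (h4 n hn).1) fun hy => (h1 hy).2 _ ⟨⟨(h4 n hn).1, h5 n hn⟩, (h4 n hn).2⟩
  push Not at h5
  obtain ⟨n, hn, h5⟩ := h5
  have h6 : ∀ y ∈ (t • insert a (orb R b)) \ {a}, (t * n * t⁻¹) • y = y := by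
    rintro _ ⟨⟨y, hy, rfl⟩, -⟩
    rw [mul_smul, mul_smul, inv_smul_smul, hy.elim (fun e => e ▸ hn.1.1) fun hy => (h1 hy).2 n hn]
  have h7 := c.surj (fun x : R × ((t • insert a (orb R b)) \ {a} :) => (x.1 : G) • (x.2 : Ω)) (fun x y e => by
    obtain ⟨⟨r, hr⟩, z, hz⟩ := x
    obtain ⟨⟨r', hr'⟩, z', hz'⟩ := y
    obtain rfl : z = (r⁻¹ * r') • z' := by rw [mul_smul, eq_inv_smul_iff]; exact e
    obtain rfl : r = r' := inv_mul_eq_one.1 (by
      by_contra h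
      have h7 := mul_mem (inv_mem hr) hr'
      have := c.free (l.le (c.norm_R l hE (h4 n hn).1 h7)) (l.le h7) hz'.2 (by
        rw [mul_smul, mul_smul, inv_fix (h6 _ hz'), h6 _ hz])
      refine h5 fun s hs => ?_
      obtain ⟨m, rfl⟩ := gen c.hp l h7 h hs
      exact (Commute.zpow_left (mul_inv_eq_iff_eq_mul.1 this).symm m).eq)
    simp) (fun x => ne_of_fix (c.fa _ (l.le x.1.2)) x.2.2.2) (by
      rw [Nat.card_prod, l.card, Nat.card_coe_set_eq, Set.ncard_sdiff_singleton_of_mem (s := t • insert a (orb R b))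
        ⟨b, Or.inr ⟨1, one_mem _, one_smul _ _⟩, ht'⟩, Set.ncard_smul_set, Set.ncard_insert_of_notMem fun h => (h1 h).1 rfl, h2, sq]; rfl)
  refine h5 (hE.le ⟨⟨(h4 n hn).1, fun y => ?_⟩, (h4 n hn).2⟩ ▸ one_mem _)
  rcases eq_or_ne y a with rfl | hy
  · exact ⟨1, one_mem _, by rw [one_smul, (h4 n hn).1]⟩
  obtain ⟨⟨r, z⟩, rfl⟩ := h7 y hy
  obtain ⟨r', h, e⟩ := l.blk _ (h4 n hn).1 z r r.2
  exact ⟨r' * (r : G)⁻¹, mul_mem h (inv_mem r.2), by rw [e, h6 _ z.2, mul_smul, inv_smul_smul]⟩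

omit l hρ [FaithfulSMul G Ω] in
theorem even_D (h2 : p ≠ 2) : 2 ∣ Nat.card (D2 G a b) := by
  by_contra h0
  obtain ⟨m, hm⟩ : Odd (p ^ 2) := (c.hp.odd_of_ne_two h2).pow
  obtain ⟨n, hn⟩ : Odd m.succ := by
    obtain ⟨k, rfl⟩ := c.hp.odd_of_ne_two h2
    exact ⟨k ^ 2 + k, by rw [show m = 2 * (k ^ 2 + k) by nlinarith]; rfl⟩
  have h1 : Nat.card G = 2 * (Nat.card (D2 G a b) * p ^ 2 * (2 * n + 1)) := by
    rw [← (D2 G a b).card_mul_index, c.index_D2, ← hn, hm, Nat.succ_eq_add_one]; ring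
  have h3 : ¬ 2 ∣ Nat.card (D2 G a b) * p ^ 2 * (2 * n + 1) := by
    rw [Nat.prime_two.dvd_mul, Nat.prime_two.dvd_mul, hm]; omega
  obtain ⟨S⟩ : Nonempty (Sylow 2 G) := inferInstance
  have h4 : Nat.card S = 2 := by
    rw [S.card_eq_multiplicity, h1, Nat.factorization_mul two_ne_zero (ne_zero_of_dvd_ne_zero (Nat.card_pos (α := G)).ne' (Dvd.intro_left _ h1.symm)), Finsupp.add_apply,
      Nat.factorization_eq_zero_of_not_dvd h3, Nat.prime_two.factorization_self]; rfl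
  have h5 := IsCyclic.isComplement' ((Nat.minFac_eq_two_iff _).2 (h1 ▸ dvd_mul_right _ _))
    (isCyclic_of_prime_card h4 : IsCyclic S)
  generalize hN : (MonoidHom.transferSylow S _).ker = N at h5
  have : N.Normal := hN ▸ inferInstance
  have h6 : P ≤ N := fun x hx => by
    have := congrArg Subtype.val (pow_card_eq_one' (x := (⟨x, hx⟩ : P)))
    rw [c.cardP, hm, coe_pow, pow_succ, pow_mul] at this
    exact (show x = _ from eq_inv_of_mul_eq_one_right this) ▸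
      inv_mem (pow_mem (N.sq_mem_of_index_two (h5.symm.index_eq_card.trans h4) _) m)
  obtain ⟨t, ht, ht'⟩ := c.two c.ne.symm c.ne
  have h7 : orb N b = Set.univ := Set.eq_univ_of_forall fun y => by
    rcases eq_or_ne y a with rfl | hy
    swap
    · exact (c.tr y hy).imp fun _ h => ⟨h6 h.1, h.2⟩
    obtain ⟨z, h8, h9⟩ : ∃ z, z ≠ y ∧ z ≠ b := by
      by_contra! h
      have := Set.ncard_le_ncard (s := {z | z ≠ y}) (t := {b}) h
      rw [c.ncard_ne, Set.ncard_singleton] at this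
      have := c.hp.one_lt; nlinarith
    obtain ⟨x, hx, e⟩ := c.tr z h8
    obtain ⟨x', hx', e'⟩ := c.tr (t⁻¹ • z) fun e => h9 (by rw [← ht, ← e, smul_inv_smul])
    exact ⟨(t * x' * t⁻¹)⁻¹ * x, mul_mem (inv_mem (this.conj_mem _ (h6 hx') t)) (h6 hx), by
      rw [mul_smul, e, inv_smul_eq_iff, mul_smul, mul_smul, inv_smul_eq_iff.2 ht'.symm, e', smul_inv_smul]⟩
  have h8 := Dvd.intro_left _ (card_orb N b)
  have h9 := h5.card_mul_card.trans h1
  rw [h4, mul_comm] at h9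
  rw [h7, Set.ncard_univ, Nat.card_eq_fintype_card (α := Ω), c.card, Nat.eq_of_mul_eq_mul_left two_pos h9] at h8
  exact h3 (Dvd.dvd.trans (by omega) h8)

omit hρ in
theorem no_triv (h2 : p ≠ 2) : KK a R ⊓ stabilizer G b ≠ ⊥ := fun hE => by
  classical
  obtain ⟨ρ, hρ⟩ := exists_crd l.card
  have h0 := c.cent_R l hE
  have h1 : ∀ g : G, g • a = a → ∀ x ∈ P, g * x * g⁻¹ ∈ P := fun g hg x hx => by
    have e : (g * x * g⁻¹) • a = a := by rw [mul_smul, mul_smul, inv_fix hg, c.fa x hx, hg]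
    obtain ⟨x', hx', e'⟩ := c.tr _ (ne_of_fix e c.ne)
    refine inv_mul_eq_one.1 (h0.le ⟨⟨show _ • a = a by rw [mul_smul, e, inv_fix (c.fa x' hx')], fun r hr => ?_⟩,
      show _ • b = b by rw [mul_smul, ← e', inv_smul_smul]⟩) ▸ hx'
    have := c.comm (l.le (c.norm_R l hE (inv_fix hg) hr)) hx
    rw [← mul_assoc, c.comm (l.le hr) (inv_mem hx'), mul_assoc, mul_assoc x'⁻¹, mul_right_inj,
      show r * (g * x * g⁻¹) = g * (g⁻¹ * r * g⁻¹⁻¹ * x) * g⁻¹ by group, this]; group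
  have h3 : ∀ d : D2 G a b, ∃ α, (d : G) * ρ 1 * (d : G)⁻¹ = ρ α := fun d =>
    (hρ.surj _ (c.norm_R l hE d.2.1 (hρ.mem 1))).imp fun _ => Eq.symm
  choose α hα using h3
  have h4 : Function.Injective α := fun d d' e => Subtype.ext (inv_mul_eq_one.1 (h0.le ⟨⟨(mul_mem (inv_mem d.2) d'.2).1,
    fun r hr => by
      obtain ⟨i, rfl⟩ := hρ.surj r hr
      have := (hρ.conj (hα d) i).trans (e ▸ (hρ.conj (hα d') i).symm)
      rw [show ρ i * ((d : G)⁻¹ * d') = (d : G)⁻¹ * (d * ρ i * (d : G)⁻¹) * d' by group, this]; group⟩,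
    (mul_mem (inv_mem d.2) d'.2).2⟩))
  have h5 : ∀ d : D2 G a b, d ≠ 1 → d * d = 1 → α d = -1 := fun d h h' => by
    have e : ρ (α d * α d) = ρ 1 := by
      rw [← hρ.conj (hα d), ← hα, show (d : G) * (d * ρ 1 * (d : G)⁻¹) * (d : G)⁻¹ = (d * d) * ρ 1 * (d * d : G)⁻¹ by
        group, ← coe_mul, h']; simp
    refine (mul_self_eq_one_iff.1 (hρ.inj e)).resolve_left fun e => h (h4 (e.trans (hρ.inj ?_)))
    rw [← hα]; simp
  obtain ⟨z, hz⟩ := exists_prime_orderOf_dvd_card' 2 (c.even_D h2)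
  have h6 : z ≠ 1 := by rintro rfl; simp at hz
  have h7 : z * z = 1 := by rw [← sq, ← hz, pow_orderOf_eq_one]
  have h8 : ∀ g : G, g * z * g⁻¹ ∈ D2 G a b → g * z * g⁻¹ = z := fun g hg => congrArg Subtype.val (h4 ((h5 ⟨_, hg⟩
    (fun e => h6 (by simpa using congrArg Subtype.val e)) (Subtype.ext (by
      simp [← coe_mul, h7]))).trans (h5 z h6 h7).symm))
  have h9 : ∀ g : G, g * z * g⁻¹ ∈ D2 G a b → ∀ y : Ω, (z : G) • y = y → (z : G) • g • y = g • y := fun g hg y hy => by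
    rw [← h8 g hg, mul_smul, mul_smul, inv_smul_smul, hy]
  have e1 : ∀ x ∈ P, (z : G) • x • b = x • b → (z : G) * x * (z : G)⁻¹ = x := fun x hx h =>
    c.free (h1 z z.2.1 x hx) hx c.ne (by rw [mul_smul, mul_smul, inv_fix z.2.2, h])
  set T := {y | y ≠ a ∧ (z : G) • y = y}
  have e2 : ∀ x ∈ P, x • b ∈ T → ∀ y ∈ T, x • y ∈ T := fun x hx h y hy => ⟨ne_of_fix (c.fa x hx) hy.1, by
    rw [smul_smul, mul_inv_eq_iff_eq_mul.1 (e1 x hx h.2), mul_smul, hy.2]⟩
  obtain ⟨e3, e4 | e4 | e4⟩ := c.block_dvd c.fa c.tr (S := T) (fun h => h.1 rfl) ⟨c.ne, z.2.2⟩ e2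
  · obtain ⟨w, hw⟩ := Set.ncard_eq_one.1 e4
    have e5 : ∀ y, (z : G) • y = y → y = a ∨ y = b := fun y h => or_iff_not_imp_left.2 fun h' =>
      (hw.le (show y ∈ T from ⟨h', h⟩)).trans (hw.le (show b ∈ T from ⟨c.ne, z.2.2⟩)).symm
    have e6 : ∀ x ∈ P, (z : G) • x • b = x⁻¹ • b := fun x hx => by
      have u := h1 z z.2.1 x hx
      have : (z : G) • (x * (z * x * (z : G)⁻¹)) • b = (x * (z * x * (z : G)⁻¹)) • b := by
        nth_rewrite 2 [c.comm hx u]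
        have : (z : G)⁻¹ = z := inv_eq_of_mul_eq_one_right (by rw [← coe_mul, h7]; rfl)
        simp only [mul_smul, this, show (z : G) • b = b from z.2.2]
      have := (e5 _ this).resolve_left (ne_of_fix (c.fa _ (mul_mem hx u)) c.ne)
      rwa [mul_smul, ← eq_inv_smul_iff, mul_smul, mul_smul, inv_fix z.2.2] at this
    have e7 : ∀ y : Ω, ∃ s : G, y ≠ a → y ≠ b → (s • a = b ∧ s • b = a) ∧ s • y = y ∧ ∃ g : G, s = g * z * g⁻¹ := by
      intro y
      by_cases hy : y ≠ a ∧ y ≠ b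
      swap
      · exact ⟨1, fun h h' => (hy ⟨h, h'⟩).elim⟩
      obtain ⟨g, hg, -⟩ := c.two c.ne.symm hy.1
      obtain ⟨x, hx, u⟩ := c.tr (g⁻¹ • a) fun e => hy.1 (hg.symm.trans (inv_smul_eq_iff.1 e).symm)
      obtain ⟨x', hx', u'⟩ := c.tr (g⁻¹ • b) fun e => hy.2 (hg.symm.trans (inv_smul_eq_iff.1 e).symm)
      obtain ⟨v, hv, e⟩ : ∃ v ∈ P, v * v = x * x' := by
        obtain ⟨m, hm⟩ := (c.hp.odd_of_ne_two h2).pow (n := 2)
        have := congrArg Subtype.val (pow_card_eq_one' (x := (⟨_, mul_mem hx hx'⟩ : P)))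
        refine ⟨(x * x') ^ (m + 1), pow_mem (mul_mem hx hx') _, ?_⟩
        rw [← pow_add, show m + 1 + (m + 1) = 2 * m + 1 + 1 by ring, pow_succ, ← hm, ← c.cardP]
        exact mul_eq_right.2 this
      have key : ∀ {x x'}, x ∈ P → v * v = x * x' → (g * v * z * (g * v)⁻¹) • g • x • b = g • x' • b := by
        intro x x' hx e
        rw [mul_inv_rev, mul_smul, mul_smul, mul_smul, mul_smul, inv_smul_smul, smul_smul v⁻¹,
          e6 _ (mul_mem (inv_mem hv) hx), smul_smul v, mul_inv_rev, inv_inv, ← mul_assoc, c.comm hv (inv_mem hx),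
          mul_assoc, e, inv_mul_cancel_left]
      refine ⟨g * v * z * (g * v)⁻¹, fun _ _ => ⟨⟨?_, ?_⟩, ?_, _, rfl⟩⟩
      · simpa only [u, u', smul_inv_smul] using key hx e
      · simpa only [u, u', smul_inv_smul] using key hx' (e.trans (c.comm hx hx'))
      · rw [← hg, mul_inv_rev, mul_smul, mul_smul, mul_smul, mul_smul, inv_smul_smul, inv_fix (c.fa v hv), z.2.1,
          c.fa v hv]
    choose s hs using e7
    have := Fintype.ofFinite G
    have e8 := Finset.card_le_mul_card_image_of_maps_to (f := s) (s := Finset.univ.filter fun y => y ≠ a ∧ y ≠ b)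
      (t := Finset.univ.filter fun s : G => s • a = b ∧ s • b = a)
      (fun y hy => by simpa using (hs y (Finset.mem_filter.1 hy).2.1 (Finset.mem_filter.1 hy).2.2).1) 2 fun u _ => by
        refine (Finset.eq_empty_or_nonempty _).elim (fun e => (congrArg Finset.card e).trans_le (by simp)) fun ⟨y, hy⟩ => ?_
        simp only [Finset.mem_filter, Finset.mem_univ, true_and] at hy
        obtain ⟨-, -, g, e⟩ := hs y hy.1.1 hy.1.2
        refine (Finset.card_le_card (t := {g • a, g • b}) fun w hw => ?_).trans Finset.card_le_two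
        simp only [Finset.mem_filter, Finset.mem_univ, true_and] at hw
        have := (hs w hw.1.1 hw.1.2).2.1
        rw [hw.2, ← hy.2, e, mul_smul, mul_smul, ← eq_inv_smul_iff] at this
        simpa only [Finset.mem_insert, Finset.mem_singleton, inv_smul_eq_iff] using e5 _ this
    obtain ⟨t, ht, ht'⟩ := c.two c.ne.symm c.ne
    have e0 : ∀ s ∈ ((Finset.univ.filter fun s : G => s • a = b ∧ s • b = a :) : Set G), t * s ∈ D2 G a b :=
      fun s hs => by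
        replace hs := (Finset.mem_filter.1 hs).2
        exact ⟨show _ • a = a by rw [mul_smul, hs.1, ht'], show _ • b = b by rw [mul_smul, hs.2, ht]⟩
    have e9 := Finset.card_le_card_of_injOn (s := Finset.univ.filter fun s : G => s • a = b ∧ s • b = a)
      (t := Finset.univ.erase (0 : ZMod p)) (fun s => if h : t * s ∈ D2 G a b then α ⟨_, h⟩ else 0) (fun s hs => by
        have h := e0 s hs
        simp only [dif_pos h, Finset.coe_erase, Finset.coe_univ, Set.mem_sdiff, Set.mem_univ, true_and]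
        intro e
        have := hα ⟨_, h⟩
        rw [e, hρ.zero, conj_eq_one_iff, ← hρ.zero] at this
        exact one_ne_zero (hρ.inj this)) fun s hs s' hs' e => by
      have h := e0 s hs
      have h' := e0 s' hs'
      simp only [dif_pos h, dif_pos h'] at e
      exact mul_left_cancel (congrArg Subtype.val (h4 e))
    rw [Finset.card_erase_of_mem (Finset.mem_univ _), Finset.card_univ, ZMod.card] at e9
    rw [show (Finset.univ.filter fun y => y ≠ a ∧ y ≠ b) = (Finset.univ.erase a).erase b by ext; simp [and_comm],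
      Finset.card_erase_of_mem (by simpa using c.ne), Finset.card_erase_of_mem (Finset.mem_univ _), Finset.card_univ,
      c.card] at e8
    obtain ⟨k, rfl⟩ := Nat.exists_eq_add_of_le c.hp.two_le
    have : (2 + k) ^ 2 = 4 + 4 * k + k ^ 2 := by ring
    omega
  · obtain ⟨t, ht, ht'⟩ := c.two c.ne.symm c.ne
    refine c.no_line e4 (fun h => h.1 rfl) (fun g hg y hy => ⟨ne_of_fix hg.1 hy.1,
      h9 g (mul_mem (mul_mem hg z.2) (inv_mem hg)) y hy.2⟩) (fun y hy w hw => ?_) (s := t) (ht ▸ c.ne) fun y hy =>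
      or_iff_not_imp_left.2 fun e => ⟨e, h9 t ⟨show _ • a = a by
        rw [mul_smul, mul_smul, inv_smul_eq_iff.2 ht'.symm, z.2.2, ht'], show _ • b = b by
        rw [mul_smul, mul_smul, inv_smul_eq_iff.2 ht.symm, z.2.1, ht]⟩ y (hy.elim (fun e => e ▸ z.2.1) fun h => h.2)⟩
    obtain ⟨x, hx, rfl⟩ := e3.ge hy
    obtain ⟨x', hx', rfl⟩ := e3.ge hw
    have := mul_mem hx' (inv_mem hx)
    exact ⟨x' * x⁻¹, c.fa _ this.1, fun w => (mem_stabilizer_set.1 this.2 w).2, by simp [mul_smul]⟩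
  · exact h6 (Subtype.ext (eq_of_smul_eq_smul (α := Ω) fun y => by
      rw [coe_one, one_smul]; exact (eq_or_ne y a).elim (fun e => e ▸ z.2.1) fun e => (e4 y e).2))

end Reg

theorem Ctx.main {p : ℕ} {a b : Ω} (c : Ctx G p a b) {B : Set Ω} (hB : Blk G p a b B) : p = 2 ∧ Nat.card G = 20 := by
  have := Fact.mk c.hp
  obtain ⟨P, c⟩ := c.exists_reg hB
  obtain ⟨R, l, -⟩ := c.of_blk hB
  obtain rfl : p = 2 := by
    by_contra h
    exact (c.fx_card (fun _ (h : _ ∈ stabilizer G a) => h) (fun y hy => (c.tr y hy).imp fun x h => ⟨c.fa x h.1, h.2⟩)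
      (Reg.conj_K l) (fun _ h => h.1) (c.no_triv l h)).elim (c.no_diff l h (c.no_triv l h)) (c.no_grid l (c.no_triv l h))
  refine ⟨rfl, ?_⟩
  suffices D2 G a b = ⊥ by rw [← (D2 G a b).card_mul_index, c.index_D2, card_eq_one.2 this]; rfl
  refine eq_bot_of_fx (fun _ h => h.1) fun y hy => ⟨hy, ?_⟩
  obtain ⟨ρ, hρ⟩ := exists_crd l.card
  have h1 : ∀ d ∈ D2 G a b, d • ρ 1 • b = ρ 1 • b := fun d hd => by
    obtain ⟨r, hr, e⟩ := l.blk d hd.1 b _ (hρ.mem 1)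
    obtain ⟨i, rfl⟩ := hρ.surj r hr
    obtain rfl | rfl : i = 0 ∨ i = 1 := by fin_cases i; exacts [Or.inl rfl, Or.inr rfl]
    · rw [hρ.zero, one_smul, smul_left_cancel_iff, ← one_smul G b, smul_smul, mul_one, ← hρ.zero] at e
      exact absurd (c.cinj l hρ c.ne e) one_ne_zero
    · rw [e, hd.2]
  by_cases h2 : y = b ∨ y = ρ 1 • b
  · rcases h2 with rfl | rfl
    exacts [fun _ h => h.2, h1]
  push Not at h2
  have h3 := Set.ncard_le_ncard (s := orb (D2 G a b) y) (t := {a, b, ρ 1 • b}ᶜ) (by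
    rintro _ ⟨d, hd, rfl⟩ (e | e | e)
    exacts [ne_of_fix hd.1 hy e, ne_of_fix hd.2 h2.1 e, ne_of_fix (h1 d hd) h2.2 e])
  rw [Set.ncard_compl, Set.ncard_eq_three.2 ⟨_, _, _, c.ne.symm, (ne_of_fix (c.fa _ (l.le (hρ.mem 1))) c.ne).symm,
    fun e => zero_ne_one (c.cinj l hρ c.ne (by rw [hρ.zero, one_smul]; exact e)), rfl⟩, Nat.card_eq_fintype_card,
    c.card] at h3
  have h4 := c.cop.coprime_dvd_left (Dvd.intro_left _ (card_orb (D2 G a b) y))
  obtain ⟨z, e⟩ := Set.ncard_eq_one.1 (show (orb (D2 G a b) y).ncard = 1 by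
    rw [Nat.coprime_two_right, Nat.odd_iff] at h4; omega)
  exact fun d hd => (e.le ⟨d, hd, rfl⟩).trans (e.le ⟨1, one_mem _, one_smul _ _⟩).symm

end Cfsg.Agent.DT
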